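import Cfsg.Agent.H15T.R1
import Cfsg.Agent.H11.Invol
import Cfsg.Agent.BG.Phi

/-! 2-groups of Rudvalis type, part 1: generalities and the free module `W / Z₃`. -/

set_option autoImplicit false
set_option linter.style.haveILetI false

namespace Cfsg.Agent.H15T

open Subgroup Cfsg.Agent.H20 Cfsg.Agent.H21 Cfsg.Agent.BG
open scoped commutatorElement

variable {T : Type*} [Group T] [Finite T]

theorem two_card_le {A B : Subgroup T} (h : A < B) : 2 * ♯A ≤ ♯B := by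
  obtain ⟨k, hk⟩ := card_dvd_of_le h.le
  have h1 : ♯A < ♯B := lt_of_le_of_ne (card_le_of_le h.le) fun e => h.ne (eq_of_le_of_card_ge h.le e.ge)
  have h2 : 0 < ♯A := Nat.card_pos
  rw [hk] at h1 ⊢
  have : 1 < k := by
    by_contra hc
    have : k ≤ 1 := by omega
    nlinarith
  nlinarith

theorem two_iff {A B : Subgroup T} (h : A ≤ B) (hc : ♯B = 2 * ♯A) {x y : T} (hx : x ∈ B) (hy : y ∈ B) :
    x * y ∈ A ↔ (x ∈ A ↔ y ∈ A) := by
  have h1 : (A.subgroupOf B).index = 2 := by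
    have h2 := (A.subgroupOf B).index_mul_card
    rw [Nat.card_congr (subgroupOfEquivOfLe h).toEquiv, hc] at h2
    exact Nat.eq_of_mul_eq_mul_right Nat.card_pos h2
  exact mul_mem_iff_of_index_two h1 (a := ⟨x, hx⟩) (b := ⟨y, hy⟩)

theorem le_of_two {A B C : Subgroup T} (h : A ≤ B) (hc : ♯B = 2 * ♯A) {z : T} (hz : z ∈ B) (hz' : z ∉ A)
    (hA : A ≤ C) (hzC : z ∈ C) : B ≤ C := by
  intro x hx
  by_cases h1 : x ∈ A
  · exact hA h1
  · have := hA ((two_iff h hc hx hz).2 (iff_of_false h1 hz'))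
    exact (mul_mem_cancel_right hzC).1 this

omit [Finite T] in
theorem ex_inj {X : Type*} {Y W : Subgroup T} (f : T → X)
    (hf : ∀ w ∈ W, ∀ w' ∈ W, f w = f w' → w⁻¹ * w' ∈ Y) :
    Function.Injective fun q : W ⧸ Y.subgroupOf W => f (q.out : W) := by
  intro q q' e
  rw [← q.out_eq, ← q'.out_eq]
  exact QuotientGroup.eq.2 (hf _ q.out.2 _ q'.out.2 e)

theorem card_le_fun {X : Type*} [Finite X] {Y W : Subgroup T} (h : Y ≤ W) (f : T → X)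
    (hf : ∀ w ∈ W, ∀ w' ∈ W, f w = f w' → w⁻¹ * w' ∈ Y) : ♯W ≤ Nat.card X * ♯Y := by
  have h1 := Nat.card_le_card_of_injective _ (ex_inj f hf)
  have h2 := card_eq_card_quotient_mul_card_subgroup (Y.subgroupOf W)
  rw [Nat.card_congr (subgroupOfEquivOfLe h).toEquiv] at h2
  rw [h2]
  exact Nat.mul_le_mul_right _ h1

theorem surj_fun {X : Type*} [Finite X] {Y W : Subgroup T} (h : Y ≤ W) (f : T → X)
    (hf : ∀ w ∈ W, ∀ w' ∈ W, f w = f w' → w⁻¹ * w' ∈ Y) (hc : Nat.card X * ♯Y ≤ ♯W) (x : X) :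
    ∃ w ∈ W, f w = x := by
  have h2 := card_eq_card_quotient_mul_card_subgroup (Y.subgroupOf W)
  rw [Nat.card_congr (subgroupOfEquivOfLe h).toEquiv] at h2
  rw [h2] at hc
  have h3 := Nat.le_of_mul_le_mul_right hc Nat.card_pos
  obtain ⟨q, hq⟩ := ((ex_inj f hf).bijective_of_nat_card_le h3).2 x
  exact ⟨_, q.out.2, hq⟩

omit [Finite T] in
theorem ex_adj {K U S : Subgroup T} (h1 : K ≤ U) (h3 : U ≤ S) (h2 : ∀ s ∈ S, s * s ∈ K)
    (hc : ∀ s ∈ S, ∀ t ∈ S, ⁅s, t⁆ ∈ K) {s : T} (hs : s ∈ S) :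
    ∃ U' : Subgroup T, U ≤ U' ∧ U' ≤ S ∧ s ∈ U' ∧ ∀ x, x ∈ U' ↔ x ∈ U ∨ x * s ∈ U := by
  have cm : ∀ s ∈ S, ∀ t ∈ S, s * t ∈ U → t * s ∈ U := fun s hs t ht h => by
    have : t * s = ⁅t, s⁆ * (s * t) := by rw [commutatorElement_def]; group
    rw [this]; exact mul_mem (h1 (hc t ht s hs)) h
  refine ⟨{ carrier := {x | x ∈ U ∨ x * s ∈ U}
            one_mem' := Or.inl (one_mem _)
            mul_mem' := ?_
            inv_mem' := ?_ }, fun x hx => Or.inl hx, ?_, Or.inr (h1 (h2 s hs)), fun x => Iff.rfl⟩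
  · rintro x y (hx | hx) (hy | hy)
    · exact Or.inl (mul_mem hx hy)
    · right; rw [mul_assoc]; exact mul_mem hx hy
    · right
      have : x * y * s = (x * s) * (s⁻¹ * (y * s)) := by group
      rw [this]
      refine mul_mem hx (cm _ (mul_mem (h3 hy) hs) _ (inv_mem hs) ?_)
      simpa using hy
    · left
      have hy' := (mul_mem_cancel_right hs).1 (h3 hy)
      have : x * y = (x * s) * (s * s)⁻¹ * (s * y) := by group
      rw [this]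
      exact mul_mem (mul_mem hx (inv_mem (h1 (h2 s hs)))) (cm _ hy' _ hs hy)
  · rintro x (hx | hx)
    · exact Or.inl (inv_mem hx)
    · right
      have hx' := (mul_mem_cancel_right hs).1 (h3 hx)
      have : x⁻¹ * s = (x * x)⁻¹ * (x * s) := by group
      rw [this]
      exact mul_mem (inv_mem (h1 (h2 x hx'))) hx
  · rintro x (hx | hx)
    exacts [h3 hx, (mul_mem_cancel_right hs).1 (h3 hx)]

/-- an elementary abelian section has a subgroup of index at most two missing a given element -/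
theorem ex_half {K S : Subgroup T} (hKS : K ≤ S) (h2 : ∀ s ∈ S, s * s ∈ K)
    (hc : ∀ s ∈ S, ∀ t ∈ S, ⁅s, t⁆ ∈ K) {c : T} (hcK : c ∉ K) :
    ∃ U, K ≤ U ∧ U ≤ S ∧ c ∉ U ∧ ∀ s ∈ S, ∀ t ∈ S, (s * t ∈ U ↔ (s ∈ U ↔ t ∈ U)) := by
  obtain ⟨U, -, hU⟩ := Finite.exists_le_maximal (p := fun U : Subgroup T => K ≤ U ∧ U ≤ S ∧ c ∉ U)
    (⟨le_rfl, hKS, hcK⟩ : K ≤ K ∧ K ≤ S ∧ c ∉ K)
  obtain ⟨⟨h1, h3, h4⟩, hm⟩ := hU
  have k : ∀ s ∈ S, s ∉ U → c * s ∈ U := by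
    intro s hs hsU
    obtain ⟨U', l1, l2, l3, l4⟩ := ex_adj h1 h3 h2 hc hs
    by_contra hn
    exact hsU (hm (y := U') ⟨h1.trans l1, l2, fun hx => ((l4 c).1 hx).elim h4 hn⟩ l1 l3)
  refine ⟨U, h1, h3, h4, fun s hs t ht => ?_⟩
  by_cases a : s ∈ U
  · simp [a, mul_mem_cancel_left a]
  by_cases b : t ∈ U
  · simp [b, mul_mem_cancel_right b]
  simp only [a, b, iff_true]
  have : s * t = (s * s) * ((c * s)⁻¹ * (c * t)) := by group
  rw [this]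
  exact mul_mem (h1 (h2 s hs)) (mul_mem (inv_mem (k s hs a)) (k t ht b))

theorem ncard_set (X : Type*) [Finite X] : Nat.card (Set X) = 2 ^ Nat.card X := by
  haveI := Fintype.ofFinite X
  rw [Nat.card_eq_fintype_card, Nat.card_eq_fintype_card, Fintype.card_set]

theorem card_half {U S : Subgroup T} (h : U ≤ S)
    (h2 : ∀ s ∈ S, ∀ t ∈ S, (s * t ∈ U ↔ (s ∈ U ↔ t ∈ U))) : ♯S ≤ 2 * ♯U := by
  have := card_le_fun h (fun w => w ∈ U) (fun w hw w' hw' e => by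
    rw [h2 _ (inv_mem hw) _ hw', inv_mem_iff]; exact Iff.of_eq e)
  simpa using this

/-- the `n`-th centre -/
abbrev ZZ (T : Type*) [Group T] (n : ℕ) : Subgroup T := Subgroup.upperCentralSeries T n

/-- the hypotheses on a 2-group of Rudvalis type -/
structure RH (W : Subgroup T) : Prop where
  hT : IsPGroup 2 T
  ha : 2 ^ 14 ≤ Nat.card T
  hb : ♯(ZZ T 4) = 16
  hW : W = centralizer (ZZ T 3 : Set T)
  hc : Nat.card (frattini W) ≤ 8
  hd : ∀ U : Subgroup W, U.index ≤ 16 → frattini W ≤ U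

omit [Finite T] in
theorem zz_le (n : ℕ) : ZZ T n ≤ ZZ T (n + 1) := Subgroup.upperCentralSeries_mono T (Nat.le_succ n)

omit [Finite T] in
theorem zz_comm {n : ℕ} {x : T} (hx : x ∈ ZZ T (n + 1)) (t : T) : ⁅x, t⁆ ∈ ZZ T n :=
  Subgroup.mem_upperCentralSeries_succ_iff.1 hx t

omit [Finite T] in
theorem zz_one {x : T} (hx : x ∈ ZZ T 1) (t : T) : t * x = x * t := by
  rw [ZZ, Subgroup.upperCentralSeries_one] at hx
  exact mem_center_iff.1 hx t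

theorem zz_up (hT : IsPGroup 2 T) {N : Subgroup T} [N.Normal] {k : ℕ} (h : ¬ N ≤ ZZ T k) :
    ∃ x ∈ N, x ∉ ZZ T k ∧ x ∈ ZZ T (k + 1) := by
  obtain ⟨x, h1, h2, -, h3⟩ := ex_cmod (T := ⊤) (hT.to_subgroup ⊤) le_top
    (by rw [normalizer_eq_top]) (by rw [normalizer_eq_top]) h
  refine ⟨x, h1, h2, Subgroup.mem_upperCentralSeries_succ_iff.2 fun y => ?_⟩
  have := inv_mem (h3 y (mem_top y))
  rwa [show (y * x * y⁻¹ * x⁻¹)⁻¹ = ⁅x, y⁆ by rw [commutatorElement_def]; group] at this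

namespace RH
variable {W : Subgroup T} (h : RH W)
include h

theorem card_all : ♯(ZZ T 0) = 1 ∧ ♯(ZZ T 1) = 2 ∧ ♯(ZZ T 2) = 4 ∧ ♯(ZZ T 3) = 8 := by
  haveI := h.hT.isNilpotent
  have k : ∀ n ≤ 3, 2 * ♯(ZZ T n) ≤ ♯(ZZ T (n + 1)) := by
    intro n hn
    refine two_card_le (lt_of_le_of_ne (zz_le n) fun e => ?_)
    have h1 := Subgroup.upperCentralSeries.eq_top (Nat.ne_of_lt (Nat.lt_succ_self n)) e
    have h2 := card_le_of_le (Subgroup.upperCentralSeries_mono T (show n ≤ 4 by omega))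
    have h3 := h.ha
    have h4 := h.hb
    rw [h1, card_top] at h2
    unfold ZZ at h4
    omega
  have h0 : ♯(ZZ T 0) = 1 := by rw [ZZ, Subgroup.upperCentralSeries_zero, card_bot]
  have h1 := k 0 (by omega)
  have h2 := k 1 (by omega)
  have h3 := k 2 (by omega)
  have h4 := k 3 (by omega)
  have h5 := h.hb
  simp only [Nat.reduceAdd] at h1 h2 h3 h4
  omega

theorem card_zz {k : ℕ} (hk : k ≤ 4) : ♯(ZZ T k) = 2 ^ k := by
  obtain ⟨h0, h1, h2, h3⟩ := h.card_all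
  have h4 := h.hb
  interval_cases k <;> assumption

theorem card_succ {k : ℕ} (hk : k ≤ 3) : ♯(ZZ T (k + 1)) = 2 * ♯(ZZ T k) := by
  rw [h.card_zz (k := k + 1) (by omega), h.card_zz (k := k) (by omega), pow_succ']

theorem two {k : ℕ} (hk : k ≤ 3) {x y : T} (hx : x ∈ ZZ T (k + 1)) (hy : y ∈ ZZ T (k + 1)) :
    x * y ∈ ZZ T k ↔ (x ∈ ZZ T k ↔ y ∈ ZZ T k) := two_iff (zz_le k) (h.card_succ hk) hx hy

theorem ex {k : ℕ} (hk : k ≤ 3) : ∃ x ∈ ZZ T (k + 1), x ∉ ZZ T k := by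
  by_contra hn
  push Not at hn
  have h1 := card_le_of_le (show ZZ T (k + 1) ≤ ZZ T k from hn)
  have h2 := h.card_succ hk
  have h3 : 0 < ♯(ZZ T k) := Nat.card_pos
  omega

theorem chain {N : Subgroup T} [N.Normal] : ∀ {k : ℕ}, k ≤ 3 → ¬ N ≤ ZZ T k → ZZ T (k + 1) ≤ N := by
  intro k
  induction k with
  | zero =>
    intro hk hn
    obtain ⟨x, h1, h2, h3⟩ := zz_up h.hT hn
    exact le_of_two (zz_le 0) (h.card_succ hk) h3 h2 (by rw [ZZ, Subgroup.upperCentralSeries_zero]; exact bot_le) h1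
  | succ k ih =>
    intro hk hn
    obtain ⟨x, h1, h2, h3⟩ := zz_up h.hT hn
    exact le_of_two (zz_le _) (h.card_succ hk) h3 h2 (ih (by omega) fun e => hn (e.trans (zz_le k))) h1

theorem normal : W.Normal := by
  rw [h.hW]; infer_instance

theorem comm {w z : T} (hw : w ∈ W) (hz : z ∈ ZZ T 3) : z * w = w * z := by
  rw [h.hW] at hw
  exact mem_centralizer_iff.1 hw z hz

theorem mem_W {z2 z3 t : T} (h2 : z2 ∈ ZZ T 2) (h2' : z2 ∉ ZZ T 1) (h3 : z3 ∈ ZZ T 3) (h3' : z3 ∉ ZZ T 2)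
    (e2 : t * z2 = z2 * t) (e3 : t * z3 = z3 * t) : t ∈ W := by
  rw [h.hW]
  have a1 : ZZ T 1 ≤ centralizer {t} := fun x hx => mem_centralizer_singleton_iff.2 (zz_one hx t).symm
  have a2 := le_of_two (zz_le 1) (h.card_succ (by omega)) h2 h2' a1 (mem_centralizer_singleton_iff.2 e2.symm)
  have a3 := le_of_two (zz_le 2) (h.card_succ (by omega)) h3 h3' a2 (mem_centralizer_singleton_iff.2 e3.symm)
  exact mem_centralizer_iff.2 fun z hz => mem_centralizer_singleton_iff.1 (a3 hz)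

theorem ab_aux {z2 z3 : T} (h2 : z2 ∈ ZZ T 2) (h2' : z2 ∉ ZZ T 1) (h3 : z3 ∈ ZZ T 3) (h3' : z3 ∉ ZZ T 2) :
    ∀ w ∈ (⊤ : Subgroup T), ∀ w' ∈ (⊤ : Subgroup T),
      ((⟨⁅z2, w⁆⁻¹, inv_mem (zz_comm h2 w)⟩, ⟨⁅z3, w⁆⁻¹, inv_mem (zz_comm h3 w)⟩) : ZZ T 1 × ZZ T 2) =
        (⟨⁅z2, w'⁆⁻¹, inv_mem (zz_comm h2 w')⟩, ⟨⁅z3, w'⁆⁻¹, inv_mem (zz_comm h3 w')⟩) → w⁻¹ * w' ∈ W := by
  intro w _ w' _ e
  have k : ∀ z : T, ⁅z, w⁆⁻¹ = ⁅z, w'⁆⁻¹ → w⁻¹ * w' * z = z * (w⁻¹ * w') := by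
    intro z e
    calc w⁻¹ * w' * z = w⁻¹ * ⁅z, w'⁆⁻¹ * z * w' := by rw [commutatorElement_def]; group
      _ = w⁻¹ * ⁅z, w⁆⁻¹ * z * w' := by rw [e]
      _ = _ := by rw [commutatorElement_def]; group
  exact h.mem_W h2 h2' h3 h3' (k _ (congrArg (fun p : ZZ T 1 × ZZ T 2 => (p.1 : T)) e))
    (k _ (congrArg (fun p : ZZ T 1 × ZZ T 2 => (p.2 : T)) e))

theorem card_le8 : Nat.card T ≤ 8 * ♯W := by
  obtain ⟨z2, h2, h2'⟩ := h.ex (k := 1) (by omega)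
  obtain ⟨z3, h3, h3'⟩ := h.ex (k := 2) (by omega)
  have := card_le_fun (X := ZZ T 1 × ZZ T 2) le_top _ (h.ab_aux h2 h2' h3 h3')
  rwa [card_top, Nat.card_prod, h.card_all.2.1, h.card_all.2.2.1] at this

theorem phi_eq : ∃ k ≤ 3, frattiniOf W = ZZ T k := by
  haveI := h.normal
  haveI : (frattiniOf W).Normal := by unfold frattiniOf; infer_instance
  have h1 : ♯(frattiniOf W) ≤ 8 := by
    have := h.hc
    rwa [← card_map_of_injective (f := W.subtype) W.subtype_injective] at this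
  by_cases a0 : frattiniOf W ≤ ZZ T 0
  · exact ⟨0, by omega, le_antisymm a0 (by rw [ZZ, Subgroup.upperCentralSeries_zero]; exact bot_le)⟩
  by_cases a1 : frattiniOf W ≤ ZZ T 1
  · exact ⟨1, by omega, le_antisymm a1 (h.chain (by omega) a0)⟩
  by_cases a2 : frattiniOf W ≤ ZZ T 2
  · exact ⟨2, by omega, le_antisymm a2 (h.chain (by omega) a1)⟩
  by_cases a3 : frattiniOf W ≤ ZZ T 3
  · exact ⟨3, by omega, le_antisymm a3 (h.chain (by omega) a2)⟩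
  have := card_le_of_le (h.chain le_rfl a3)
  rw [h.hb] at this
  omega

theorem sq_phi {w : T} (hw : w ∈ W) : w * w ∈ frattiniOf W := by
  rw [← pow_two]; exact pow_mem_frattiniOf (h.hT.to_subgroup W) hw

theorem cm_phi {w w' : T} (hw : w ∈ W) (hw' : w' ∈ W) : ⁅w, w'⁆ ∈ frattiniOf W :=
  der_le_frattiniOf (h.hT.to_subgroup W).isNilpotent (commutator_mem_commutator hw hw')

theorem emb {k : ℕ} (hk : k ≤ 3) (e : frattiniOf W = ZZ T k) {c : T} (hc : c ∈ ZZ T (k + 1)) (hc' : c ∉ ZZ T k) :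
    ∃ U : Subgroup T, ZZ T k ≤ U ∧ U ≤ W ∧ c ∉ U ∧ (∀ s ∈ W, ∀ t ∈ W, (s * t ∈ U ↔ (s ∈ U ↔ t ∈ U))) ∧
      (∀ w, (∀ t : T, t⁻¹ * w * t ∈ U) → w ∈ ZZ T k) ∧
      (∀ w ∈ W, ∀ t : T, ∀ s ∈ W, ((t * s)⁻¹ * w * (t * s) ∈ U ↔ t⁻¹ * w * t ∈ U)) ∧
      ∀ w ∈ W, ∀ w' ∈ W, {q : T ⧸ W | q.out⁻¹ * w * q.out ∉ U} = {q : T ⧸ W | q.out⁻¹ * w' * q.out ∉ U} →
        w⁻¹ * w' ∈ ZZ T k := by
  haveI := h.normal
  obtain ⟨U, h1, h2, h3, h4⟩ := ex_half (K := ZZ T k) (S := W) (e ▸ frattiniOf_le W)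
    (fun s hs => e ▸ h.sq_phi hs) (fun s hs t ht => e ▸ h.cm_phi hs ht) hc'
  have a1 : ∀ w, (∀ t : T, t⁻¹ * w * t ∈ U) → w ∈ ZZ T k := by
    intro w hw
    have : U.normalCore ≤ ZZ T k := by
      by_contra hn
      exact h3 (normalCore_le U (h.chain hk hn hc))
    refine this fun t => ?_
    simpa using hw t⁻¹
  have cj : ∀ w ∈ W, ∀ t : T, t⁻¹ * w * t ∈ W := fun w hw t => h.normal.conj_mem' w hw t
  have a2 : ∀ w ∈ W, ∀ t : T, ∀ s ∈ W, ((t * s)⁻¹ * w * (t * s) ∈ U ↔ t⁻¹ * w * t ∈ U) := by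
    intro w hw t s hs
    rw [show (t * s)⁻¹ * w * (t * s) = s⁻¹ * (t⁻¹ * w * t * s) by group,
      h4 _ (inv_mem hs) _ (mul_mem (cj w hw t) hs), h4 _ (cj w hw t) _ hs, inv_mem_iff]
    tauto
  refine ⟨U, h1, h2, h3, h4, a1, a2, fun w hw w' hw' e => a1 _ fun t => ?_⟩
  obtain ⟨s, hs⟩ := QuotientGroup.mk_out_eq_mul W t
  have e1 := Set.ext_iff.1 e (t : T ⧸ W)
  simp only [Set.mem_ofPred_eq, hs, a2 _ hw _ _ s.2, a2 _ hw' _ _ s.2] at e1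
  rw [show t⁻¹ * (w⁻¹ * w') * t = (t⁻¹ * w * t)⁻¹ * (t⁻¹ * w' * t) by group,
    h4 _ (inv_mem (cj w hw t)) _ (cj w' hw' t), inv_mem_iff]
  tauto

theorem cards : frattiniOf W = ZZ T 3 ∧ ♯W = 2 ^ 11 ∧ W.index = 8 ∧ Nat.card T = 2 ^ 14 := by
  obtain ⟨k, hk, e⟩ := h.phi_eq
  obtain ⟨c, hc, hc'⟩ := h.ex hk
  obtain ⟨U, -, -, -, -, -, -, h1⟩ := h.emb hk e hc hc'
  have h2 := card_le_fun (X := Set (T ⧸ W)) (e ▸ frattiniOf_le W) _ h1
  rw [ncard_set, h.card_zz (by omega), ← index_eq_card] at h2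
  have h3 := h.card_le8
  have h4 := h.ha
  have h5 := W.index_mul_card
  have h6 : W.index ≤ 8 := by
    rw [← h5] at h3
    exact Nat.le_of_mul_le_mul_right h3 Nat.card_pos
  have h7 : 2 ^ W.index ≤ 2 ^ 8 := Nat.pow_le_pow_right two_pos h6
  have h8 : k = 3 := by
    by_contra hn
    have : 2 ^ k ≤ 2 ^ 2 := Nat.pow_le_pow_right two_pos (by omega)
    have := Nat.mul_le_mul h7 this
    omega
  subst h8
  have h9 : ♯W = 2 ^ 11 := by omega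
  rw [h9] at h5
  exact ⟨e, h9, by omega, by omega⟩

theorem W3 : ZZ T 3 ≤ W := h.cards.1 ▸ frattiniOf_le W

theorem W4 : ZZ T 4 ≤ W := by
  haveI := h.normal
  refine h.chain le_rfl fun e => ?_
  have := card_le_of_le e
  rw [h.cards.2.1, h.card_all.2.2.2] at this
  omega

theorem sq {w : T} (hw : w ∈ W) : w * w ∈ ZZ T 3 := h.cards.1 ▸ h.sq_phi hw

theorem cm {w w' : T} (hw : w ∈ W) (hw' : w' ∈ W) : ⁅w, w'⁆ ∈ ZZ T 3 := h.cards.1 ▸ h.cm_phi hw hw'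

theorem cjm {w : T} (hw : w ∈ W) (g : T) : g * w * g⁻¹ ∈ W := h.normal.conj_mem w hw g

theorem hd1 {U : Subgroup T} (hU : U ≤ W) (hc : 2 ^ 7 ≤ ♯U) : ZZ T 3 ≤ U := by
  have h1 := (U.subgroupOf W).index_mul_card
  rw [Nat.card_congr (subgroupOfEquivOfLe hU).toEquiv, h.cards.2.1] at h1
  have h2 := h.hd (U.subgroupOf W) (by nlinarith)
  rw [← h.cards.1, ← map_subgroupOf_eq_of_le hU]
  exact map_mono h2

theorem hd2 {K S : Subgroup T} (hS : S ≤ W) (hc : 2 ^ 8 ≤ ♯S) (hKS : K ≤ S) (h2 : ∀ s ∈ S, s * s ∈ K)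
    (h3 : ∀ s ∈ S, ∀ t ∈ S, ⁅s, t⁆ ∈ K) : ZZ T 3 ≤ K := by
  intro c hc3
  by_contra hn
  obtain ⟨U, -, a1, a2, a3⟩ := ex_half hKS h2 h3 hn
  have := card_half a1 a3
  exact a2 (h.hd1 (a1.trans hS) (by omega) hc3)

open Classical in
/-- `W / Z₃` is the free `𝔽₂[T/W]`-module of rank one -/
theorem free {c : T} (hc : c ∈ ZZ T 4) (hc' : c ∉ ZZ T 3) : ∃ χ : T → T → ZMod 2,
    (∀ w ∈ W, ∀ w' ∈ W, ∀ t, χ (w * w') t = χ w t + χ w' t) ∧
    (∀ w ∈ W, ∀ t, ∀ s ∈ W, χ w (t * s) = χ w t) ∧ (∀ w g t, χ (g * w * g⁻¹) t = χ w (g⁻¹ * t)) ∧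
    (∀ w, (∀ t, χ w t = 0) ↔ w ∈ ZZ T 3) ∧ (∀ t, χ c t = 1) ∧
    ∀ f : T ⧸ W → ZMod 2, ∃ u ∈ W, ∀ t, χ u t = f t := by
  haveI := h.normal
  obtain ⟨U, h1, h2, h3, h4, h5, h6, h7⟩ := h.emb le_rfl h.cards.1 hc hc'
  have cj : ∀ w ∈ W, ∀ t : T, t⁻¹ * w * t ∈ W := fun w hw t => h.normal.conj_mem' w hw t
  refine ⟨fun w t => if t⁻¹ * w * t ∈ U then 0 else 1, fun w hw w' hw' t => ?_, fun w hw t s hs => ?_,
    fun w g t => ?_, fun w => ⟨fun e => h5 w fun t => ?_, fun e t => ?_⟩, fun t => ?_, fun f => ?_⟩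
  · have := h4 _ (cj w hw t) _ (cj w' hw' t)
    rw [show t⁻¹ * w * t * (t⁻¹ * w' * t) = t⁻¹ * (w * w') * t by group] at this
    simp only [this]
    by_cases a : t⁻¹ * w * t ∈ U <;> by_cases b : t⁻¹ * w' * t ∈ U <;> simp [a, b]
    rfl
  · simp only [h6 w hw t s hs]
  · simp only [show t⁻¹ * (g * w * g⁻¹) * t = (g⁻¹ * t)⁻¹ * w * (g⁻¹ * t) by group]
  · by_contra hn
    simpa [hn] using e t
  · simp [h1 (Normal.conj_mem' inferInstance w e t)]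
  · have : t⁻¹ * c * t ∉ U := by
      intro e
      have a := h1 (zz_comm hc t⁻¹)
      rw [show ⁅c, t⁻¹⁆ = c * (t⁻¹ * c * t)⁻¹ by rw [commutatorElement_def]; group] at a
      exact h3 ((mul_mem_cancel_right (inv_mem e)).1 a)
    simp [this]
  · obtain ⟨u, hu, e⟩ := surj_fun (X := Set (T ⧸ W)) h.W3 _ h7 (by
      rw [ncard_set, ← index_eq_card, h.cards.2.2.1, h.cards.2.1, h.card_all.2.2.2]; norm_num) {q | f q = 1}
    refine ⟨u, hu, fun t => ?_⟩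
    obtain ⟨s, hs⟩ := QuotientGroup.mk_out_eq_mul W t
    have e1 := Set.ext_iff.1 e (t : T ⧸ W)
    simp only [Set.mem_ofPred_eq, hs, h6 _ hu _ _ s.2] at e1
    have k : ∀ x : ZMod 2, x ≠ 1 → 0 = x := by decide
    by_cases a : t⁻¹ * u * t ∈ U
    · simp only [a, if_true]
      exact k _ fun b => e1.2 b a
    · simp only [a, if_false]
      exact (e1.1 a).symm

end RH

end Cfsg.Agent.H15T
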