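import Cfsg.Agent.H15T.Ru1

/-! 2-groups of Rudvalis type, part 2: the derived group and the centre of `W`, and `T / W`. -/

set_option autoImplicit false
set_option linter.style.haveILetI false

namespace Cfsg.Agent.H15T

open Subgroup Cfsg.Agent.H20 Cfsg.Agent.H21 Cfsg.Agent.BG
open scoped commutatorElement

variable {T : Type*} [Group T] [Finite T]

open Classical in
/-- the class modulo the second centre -/
noncomputable def sg (c : T) : ZMod 2 := if c ∈ ZZ T 2 then 0 else 1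

omit [Finite T] in
theorem sg_eq {c : T} : sg c = 0 ↔ c ∈ ZZ T 2 := by
  unfold sg; split_ifs with h <;> simp [h]

omit [Finite T] in
theorem sg_ne {c : T} (h : c ∉ ZZ T 2) : sg c = 1 := if_neg h

omit [Finite T] in
theorem sg_congr {c c' : T} (h : c ∈ ZZ T 2 ↔ c' ∈ ZZ T 2) : sg c = sg c' := by
  classical exact if_congr h rfl rfl

omit [Finite T] in
theorem sg_cj (g c : T) : sg (g * c * g⁻¹) = sg c :=
  sg_congr (by rw [Normal.mem_comm_iff inferInstance (a := g * c), inv_mul_cancel_left])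

omit [Finite T] in
theorem sg_inv (c : T) : sg c⁻¹ = sg c := sg_congr inv_mem_iff

omit [Finite T] in
theorem sg_one : sg (1 : T) = 0 := sg_eq.2 (one_mem _)

omit [Finite T] in
theorem bt_symm (x y : T) : sg ⁅x, y⁆ = sg ⁅y, x⁆ := by rw [← commutatorElement_inv, sg_inv]

omit [Finite T] in
theorem bt_cj (g x y : T) : sg ⁅g * x * g⁻¹, g * y * g⁻¹⁆ = sg ⁅x, y⁆ := by
  rw [← conjugate_commutatorElement, sg_cj]

omit [Finite T] in
theorem qq_cj (g x : T) : sg (g * x * g⁻¹ * (g * x * g⁻¹)) = sg (x * x) := by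
  rw [show g * x * g⁻¹ * (g * x * g⁻¹) = g * (x * x) * g⁻¹ by group, sg_cj]

theorem z2_add : ∀ x : ZMod 2, x + x = 0 := by decide

/-- a transversal of the centre in the dihedral group of order eight -/
def trv : Finset (DihedralGroup 4) := {.r 0, .r 1, .sr 0, .sr 1}

theorem d4_aux (s : DihedralGroup 4 → ZMod 2) (h0 : s (.r 0) = 0) (h2 : s (.r 2) = 0) (h13 : s (.r 3) = s (.r 1))
    (i : ZMod 4) (hi : s (.sr i) = 0) (hi' : s (.sr i * .r 2) = 0) (hs : ∑ d, s d = 0) :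
    ∀ d, s (.r 2 * d) = s d := by
  have e : (Finset.univ : Finset (DihedralGroup 4)) = {.r 0, .r 1, .r 2, .r 3, .sr 0, .sr 1, .sr 2, .sr 3} := by decide
  rw [e, Finset.sum_insert (by decide), Finset.sum_insert (by decide), Finset.sum_insert (by decide),
    Finset.sum_insert (by decide), Finset.sum_insert (by decide), Finset.sum_insert (by decide),
    Finset.sum_pair (by decide), h0, h2, h13] at hs
  have k : s (.sr 2) = s (.sr 0) ∧ s (.sr 3) = s (.sr 1) := by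
    have u : ∀ a b c d x : ZMod 2, 0 + (x + (0 + (x + (a + (b + (c + d)))))) = 0 →
      (a = 0 ∧ c = 0 ∨ b = 0 ∧ d = 0) → c = a ∧ d = b := by decide
    refine u _ _ _ _ _ hs ?_
    fin_cases i
    exacts [Or.inl ⟨hi, hi'⟩, Or.inr ⟨hi, hi'⟩, Or.inl ⟨hi', hi⟩, Or.inr ⟨hi', hi⟩]
  rintro (j | j) <;> fin_cases j
  exacts [h2.trans h0.symm, h13, h0.trans h2.symm, h13.symm, k.1, k.2, k.1.symm, k.2.symm]

namespace RH
variable {W : Subgroup T} (h : RH W)
include h

theorem sg_mul {c c' : T} (hc : c ∈ ZZ T 3) (hc' : c' ∈ ZZ T 3) : sg (c * c') = sg c + sg c' := by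
  have := h.two (k := 2) (by omega) hc hc'
  by_cases a : c ∈ ZZ T 2 <;> by_cases b : c' ∈ ZZ T 2
  · rw [sg_eq.2 a, sg_eq.2 b, sg_eq.2 (mul_mem a b)]; rfl
  · rw [sg_eq.2 a, sg_ne b, sg_ne (by tauto)]; rfl
  · rw [sg_eq.2 b, sg_ne a, sg_ne (by tauto)]; rfl
  · rw [sg_ne b, sg_ne a, sg_eq.2 (by tauto)]; rfl

theorem bt_mul {x y y' : T} (hx : x ∈ W) (hy : y ∈ W) (hy' : y' ∈ W) :
    sg ⁅x, y * y'⁆ = sg ⁅x, y⁆ + sg ⁅x, y'⁆ := by
  rw [show ⁅x, y * y'⁆ = ⁅x, y⁆ * (y * ⁅x, y'⁆ * y⁻¹) by simp only [commutatorElement_def]; group,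
    h.sg_mul (h.cm hx hy) (Normal.conj_mem inferInstance _ (h.cm hx hy') _), sg_cj]

theorem bt_mul' {x x' y : T} (hx : x ∈ W) (hx' : x' ∈ W) (hy : y ∈ W) :
    sg ⁅x * x', y⁆ = sg ⁅x, y⁆ + sg ⁅x', y⁆ := by
  rw [bt_symm, h.bt_mul hy hx hx', bt_symm y, bt_symm y]

theorem bt_z {x c : T} (hx : x ∈ W) (hc : c ∈ ZZ T 3) : sg ⁅x, c⁆ = 0 := by
  rw [commutatorElement_eq_one_iff_mul_comm.2 (h.comm hx hc).symm, sg_one]

theorem qq_mul {x y : T} (hx : x ∈ W) (hy : y ∈ W) :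
    sg (x * y * (x * y)) = sg (x * x) + sg (y * y) + sg ⁅x, y⁆ := by
  rw [show x * y * (x * y) = x * x * (x⁻¹ * ⁅y, x⁆ * x⁻¹⁻¹) * (y * y) by simp only [commutatorElement_def]; group,
    h.sg_mul (mul_mem (h.sq hx) (Normal.conj_mem inferInstance _ (h.cm hy hx) _)) (h.sq hy),
    h.sg_mul (h.sq hx) (Normal.conj_mem inferInstance _ (h.cm hy hx) _), sg_cj, bt_symm y]
  ring

theorem noS {S : Subgroup T} (hS : S ≤ W) (hc : 2 ^ 8 ≤ ♯S) (hKS : ZZ T 2 ≤ S) (h2 : ∀ s ∈ S, sg (s * s) = 0)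
    (h3 : ∀ s ∈ S, ∀ t ∈ S, sg ⁅s, t⁆ = 0) : False := by
  have := card_le_of_le (h.hd2 hS hc hKS (fun s hs => sg_eq.1 (h2 s hs)) fun s hs t ht => sg_eq.1 (h3 s hs t ht))
  rw [h.card_all.2.2.1, h.card_all.2.2.2] at this
  omega

theorem der : ⁅W, W⁆ = ZZ T 3 := by
  haveI := h.normal
  refine le_antisymm (commutator_le.2 fun x hx y hy => h.cm hx hy) (h.chain (by omega) fun e => ?_)
  have b0 : ∀ x ∈ W, ∀ y ∈ W, sg ⁅x, y⁆ = 0 := fun x hx y hy => sg_eq.2 (e (commutator_mem_commutator hx hy))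
  have qi : ∀ x : T, sg (x⁻¹ * x⁻¹) = sg (x * x) := fun x => by rw [← mul_inv_rev, sg_inv]
  let S : Subgroup T :=
    { carrier := {w | w ∈ W ∧ sg (w * w) = 0}
      one_mem' := ⟨one_mem _, by rw [one_mul, sg_one]⟩
      mul_mem' := fun {x y} hx hy => ⟨mul_mem hx.1 hy.1, by rw [h.qq_mul hx.1 hy.1, hx.2, hy.2, b0 x hx.1 y hy.1]; rfl⟩
      inv_mem' := fun {x} hx => ⟨inv_mem hx.1, by rw [qi, hx.2]⟩ }
  have hS : S ≤ W := fun x hx => hx.1
  have h1 := card_le_fun (X := ZMod 2) hS (fun w => sg (w * w)) fun w hw w' hw' e =>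
    ⟨mul_mem (inv_mem hw) hw', by
      rw [h.qq_mul (inv_mem hw) hw', qi, b0 _ (inv_mem hw) _ hw', add_zero]
      rw [e, z2_add]⟩
  rw [h.cards.2.1, Nat.card_zmod] at h1
  exact h.noS hS (by omega) (fun x hx => ⟨h.W3 (zz_le 2 hx), sg_eq.2 (mul_mem hx hx)⟩) (fun s hs => hs.2)
    fun s hs t ht => b0 s hs.1 t ht.1

theorem elem {c : T} (hc : c ∈ ZZ T 3) : c * c = 1 := by
  let S : Subgroup T :=
    { carrier := {w | w ∈ ZZ T 3 ∧ w * w = 1}
      one_mem' := ⟨one_mem _, one_mul _⟩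
      mul_mem' := fun {x y} hx hy => ⟨mul_mem hx.1 hy.1, by
        calc x * y * (x * y) = x * (y * x) * y := by group
          _ = x * x * (y * y) := by rw [h.comm (h.W3 hx.1) hy.1]; group
          _ = 1 := by rw [hx.2, hy.2, one_mul]⟩
      inv_mem' := fun {x} hx => ⟨inv_mem hx.1, by rw [← mul_inv_rev, hx.2, inv_one]⟩ }
  have : ⁅W, W⁆ ≤ S := commutator_le.2 fun x hx y hy => ⟨h.cm hx hy, by
    have a1 := h.comm hx (h.cm hx hy)
    have a2 := h.comm hy (h.sq hx)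
    calc ⁅x, y⁆ * ⁅x, y⁆ = ⁅x, y⁆ * x * x⁻¹ * ⁅x, y⁆ := by group
      _ = ⁅x * x, y⁆ := by rw [a1]; simp only [commutatorElement_def]; group
      _ = 1 := commutatorElement_eq_one_iff_mul_comm.2 a2⟩
  exact (this (h.der ▸ hc)).2

theorem d8 [W.Normal] : ∃ (e : T ⧸ W ≃* DihedralGroup 4) (E : Subgroup T), (∀ t, t * t ∈ E) ∧ W ≤ E ∧
    (∃ i, ∃ b ∈ E, e b = .sr i) ∧ ∀ g ∈ E, g ∉ W → ∀ c ∈ ZZ T 3, g * c = c * g → c ∈ ZZ T 2 := by
  obtain ⟨z1, h1, h1'⟩ := h.ex (k := 0) (by omega)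
  obtain ⟨z2, h2, h2'⟩ := h.ex (k := 1) (by omega)
  obtain ⟨z3, h3, h3'⟩ := h.ex (k := 2) (by omega)
  have sj := surj_fun (X := ZZ T 1 × ZZ T 2) le_top _ (h.ab_aux h2 h2' h3 h3') (by
    rw [card_top, Nat.card_prod, h.card_all.2.1, h.card_all.2.2.1, h.cards.2.1, h.cards.2.2.2]; norm_num)
  obtain ⟨a, -, ha⟩ := sj (⟨z1, h1⟩, 1)
  obtain ⟨b, -, hb⟩ := sj (1, ⟨z2, h2⟩)
  have k : ∀ {z w y : T}, ⁅z, w⁆⁻¹ = y → MulAut.conj w z = y * z := fun e => by
    rw [← e, commutatorElement_def, MulAut.conj_apply]; group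
  have a2 := k (congrArg (fun p : ZZ T 1 × ZZ T 2 => (p.1 : T)) ha)
  have a3 := k (congrArg (fun p : ZZ T 1 × ZZ T 2 => (p.2 : T)) ha)
  have b2 := k (congrArg (fun p : ZZ T 1 × ZZ T 2 => (p.1 : T)) hb)
  have b3 := k (congrArg (fun p : ZZ T 1 × ZZ T 2 => (p.2 : T)) hb)
  simp only [OneMemClass.coe_one, one_mul] at a2 a3 b2 b3
  have c1 : ∀ t, MulAut.conj t z1 = z1 := fun t => by rw [MulAut.conj_apply, zz_one h1 t]; group
  have s1 : ∀ x, z1 * (z1 * x) = x := fun x => by rw [← mul_assoc, h.elem (zz_le 2 (zz_le 1 h1)), one_mul]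
  have s2 : ∀ x, z2 * (z2 * x) = x := fun x => by rw [← mul_assoc, h.elem (zz_le 2 h2), one_mul]
  have s3 : ∀ x, z2 * (z1 * x) = z1 * (z2 * x) := fun x => by rw [← mul_assoc, zz_one h1 z2, mul_assoc]
  have mw : ∀ t, t ∈ W ↔ MulAut.conj t z2 = z2 ∧ MulAut.conj t z3 = z3 := fun t => by
    simp only [MulAut.conj_apply, mul_inv_eq_iff_eq_mul]
    exact ⟨fun ht => ⟨(h.comm ht (zz_le 2 h2)).symm, (h.comm ht h3).symm⟩, fun e => h.mem_W h2 h2' h3 h3' e.1 e.2⟩
  have n1 : z1 ≠ 1 := fun e => h1' (e ▸ one_mem _)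
  have n2 : z2 ≠ 1 := fun e => h2' (e ▸ one_mem _)
  have qa : (a : T ⧸ W) * a = 1 := by
    rw [← QuotientGroup.mk_mul, QuotientGroup.eq_one_iff, mw]
    simp only [map_mul, MulAut.mul_apply, a2, a3, c1, s1, and_self]
  have qb : (b : T ⧸ W) * b = 1 := by
    rw [← QuotientGroup.mk_mul, QuotientGroup.eq_one_iff, mw]
    simp only [map_mul, MulAut.mul_apply, b2, b3, s2, and_self]
  have qr : ¬ ((a : T ⧸ W) * b) ^ 2 ^ 1 = 1 := by
    rw [pow_one, pow_two, ← QuotientGroup.mk_mul, ← QuotientGroup.mk_mul, QuotientGroup.eq_one_iff, mw]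
    simp only [map_mul, MulAut.mul_apply, a2, a3, b2, b3, c1, s1, s2, s3, mul_assoc, true_and]
    simpa using n1
  have qr4 : ((a : T ⧸ W) * b) ^ 2 ^ (1 + 1) = 1 := by
    rw [show (2 : ℕ) ^ (1 + 1) = 2 * 2 from rfl, pow_mul, pow_two, pow_two, ← QuotientGroup.mk_mul,
      ← QuotientGroup.mk_mul, ← QuotientGroup.mk_mul, QuotientGroup.eq_one_iff, mw]
    simp only [map_mul, MulAut.mul_apply, a2, a3, b2, b3, c1, s1, s2, s3, mul_assoc, true_and]
  have o4 : orderOf ((a : T ⧸ W) * b) = 4 := orderOf_eq_prime_pow qr qr4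
  have iv : (a : T ⧸ W) * ((a : T ⧸ W) * b) * (a : T ⧸ W)⁻¹ = ((a : T ⧸ W) * b)⁻¹ := by
    rw [← mul_assoc, qa, one_mul, mul_inv_rev, inv_self qb]
  have nc : (b : T ⧸ W) * a ≠ a * b := fun e => qr (by
    rw [pow_one, pow_two, mul_assoc, ← mul_assoc (b : T ⧸ W), e, ← mul_assoc, ← mul_assoc, qa, one_mul, qb])
  obtain ⟨e⟩ := H11.nonempty_closure_equiv_dihedral (by norm_num) o4 iv qa (fun e => by
    obtain ⟨n, hn⟩ := mem_zpowers_iff.1 e
    have : Commute (a : T ⧸ W) ((a : T ⧸ W) * b) := by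
      nth_rewrite 1 [← hn]; exact (Commute.refl _).zpow_left n
    exact nc (by
      have := this.eq
      rw [mul_assoc, mul_left_cancel_iff] at this
      exact this.symm))
  have tp : closure ({(a : T ⧸ W) * b, (a : T ⧸ W)} : Set (T ⧸ W)) = ⊤ := by
    apply eq_top_of_card_eq
    rw [Nat.card_congr e.toEquiv, DihedralGroup.nat_card, ← index_eq_card, h.cards.2.2.1]
  let e' : T ⧸ W ≃* DihedralGroup 4 := (topEquiv.symm.trans (MulEquiv.subgroupCongr tp.symm)).trans e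
  refine ⟨e', centralizer {z2}, fun t => ?_, fun w hw => ?_, ?_, fun g hg hgW c hc e => ?_⟩
  · rw [mem_centralizer_singleton_iff]
    have u : MulAut.conj t z2 = z2 ∨ MulAut.conj t z2 = z1 * z2 := by
      have u1 := inv_mem (zz_comm h2 t)
      by_cases u2 : ⁅z2, t⁆⁻¹ ∈ ZZ T 0
      · left
        rw [ZZ, Subgroup.upperCentralSeries_zero, mem_bot] at u2
        rw [k u2, one_mul]
      · right
        have u3 := (h.two (k := 0) (by omega) h1 u1).2 (iff_of_false h1' u2)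
        rw [ZZ, Subgroup.upperCentralSeries_zero, mem_bot] at u3
        refine k ?_
        rw [← s1 ⁅z2, t⁆⁻¹, u3, mul_one]
    have : MulAut.conj (t * t) z2 = z2 := by
      rcases u with u | u <;> simp only [map_mul, MulAut.mul_apply, u, c1, s1]
    rwa [MulAut.conj_apply, mul_inv_eq_iff_eq_mul] at this
  · exact mem_centralizer_singleton_iff.2 (h.comm hw (zz_le 2 h2)).symm
  · have u : ∀ d d' : DihedralGroup 4, d * d = 1 → d * d' ≠ d' * d → ∃ i, d = .sr i := by decide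
    obtain ⟨i, hi⟩ := u (e' b) (e' a) (by rw [← map_mul, qb, map_one])
      (by rw [← map_mul, ← map_mul]; exact fun e => nc (e'.injective e))
    refine ⟨i, b, mem_centralizer_singleton_iff.2 ?_, hi⟩
    rwa [MulAut.conj_apply, mul_inv_eq_iff_eq_mul] at b2
  · by_contra hn
    exact hgW (h.mem_W h2 h2' hc hn (mem_centralizer_singleton_iff.1 hg) e)

open Classical in
theorem free' [W.Normal] {c : T} (hc : c ∈ ZZ T 4) (hc' : c ∉ ZZ T 3) : ∃ (X : T → T ⧸ W → ZMod 2) (v : T), v ∈ W ∧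
    (∀ w ∈ W, ∀ w' ∈ W, X (w * w') = X w + X w') ∧ (∀ w ∈ W, ∀ (g : T) d, X (g * w * g⁻¹) d = X w ((g : T ⧸ W)⁻¹ * d)) ∧
    (∀ w ∈ W, X w = 0 ↔ w ∈ ZZ T 3) ∧ (∀ d, X c d = 1) ∧ X v = Pi.single 1 1 ∧
    ∀ P : T → (T ⧸ W → ZMod 2) → Prop, P 1 0 →
      (∀ u ∈ W, ∀ u' ∈ W, ∀ f f', P u f → P u' f' → P (u * u') (f + f')) →
      (∀ d : T ⧸ W, P (d.out * v * d.out⁻¹) (Pi.single d 1)) → ∀ f, ∃ u ∈ W, X u = f ∧ P u f := by
  obtain ⟨χ, h1, h2, h3, h4, h5, h6⟩ := h.free hc hc'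
  obtain ⟨v, hv, h7⟩ := h6 (Pi.single 1 1)
  have k : ∀ w ∈ W, ∀ t : T, χ w (t : T ⧸ W).out = χ w t := fun w hw t => by
    obtain ⟨s, hs⟩ := QuotientGroup.mk_out_eq_mul W t
    rw [hs, h2 w hw t s s.2]
  have a1 : ∀ w ∈ W, ∀ (g : T) (d : T ⧸ W), χ (g * w * g⁻¹) d.out = χ w ((g : T ⧸ W)⁻¹ * d).out := fun w hw g d => by
    rw [h3, ← k w hw, QuotientGroup.mk_mul, QuotientGroup.mk_inv, QuotientGroup.out_eq']
  refine ⟨fun w d => χ w d.out, v, hv, fun w hw w' hw' => funext fun d => h1 w hw w' hw' _, a1,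
    fun w hw => ⟨fun e => (h4 w).1 fun t => ?_, fun e => funext fun d => (h4 w).2 e _⟩, fun d => h5 _,
    funext fun d => by simp only [h7, QuotientGroup.out_eq'], fun P P1 Pm Px f => ?_⟩
  · rw [← k w hw]; exact congrFun e _
  have z : ∃ u ∈ W, (fun d : T ⧸ W => χ u d.out) = 0 ∧ P u 0 :=
    ⟨1, one_mem _, funext fun d => (h4 1).2 (one_mem _) _, P1⟩
  induction f using Pi.single_induction with
  | zero => exact z
  | add f f' ih ih' =>
    obtain ⟨u, hu, e, p⟩ := ih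
    obtain ⟨u', hu', e', p'⟩ := ih'
    exact ⟨u * u', mul_mem hu hu', by rw [← e, ← e']; exact funext fun d => h1 u hu u' hu' _, Pm u hu u' hu' _ _ p p'⟩
  | single d m =>
    have u : ∀ m : ZMod 2, m = 0 ∨ m = 1 := by decide
    rcases u m with rfl | rfl
    · rw [Pi.single_zero]; exact z
    refine ⟨_, h.cjm hv _, funext fun d' => ?_, Px d⟩
    simp only [a1 v hv, h7, QuotientGroup.out_eq', Pi.single_apply, inv_mul_eq_one, eq_comm]

theorem not_cent : ¬ ZZ T 4 ≤ centralizer (W : Set T) := by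
  classical
  intro hn
  haveI := h.normal
  haveI := Fintype.ofFinite (T ⧸ W)
  obtain ⟨c, hc, hc'⟩ := h.ex (k := 3) le_rfl
  obtain ⟨X, v, hv, h1, h2, h3, h4, h5, h6⟩ := h.free' hc hc'
  obtain ⟨e, E, e1, e2, ⟨i, b, hb, e3⟩, e4⟩ := h.d8
  have ff : ∀ f : T ⧸ W → ZMod 2, f + f = 0 := fun f => funext fun d => z2_add _
  have zz : ∀ w ∈ W, ∀ w' ∈ W, X w = X w' → w * w' ∈ ZZ T 3 := fun w hw w' hw' e =>
    (h3 _ (mul_mem hw hw')).1 (by rw [h1 w hw w' hw', e, ff])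
  have u2 : ∀ x y : ZMod 2, x + y = 0 → x = y := by decide
  have cong : ∀ φ : T → ZMod 2, (∀ w ∈ W, ∀ w' ∈ W, φ (w * w') = φ w + φ w') → (∀ w ∈ ZZ T 3, φ w = 0) →
      ∀ w ∈ W, ∀ w' ∈ W, X w = X w' → φ w = φ w' := fun φ p1 p2 w hw w' hw' e =>
    u2 _ _ (by rw [← p1 w hw w' hw', p2 _ (zz w hw w' hw' e)])
  set x : T ⧸ W → T := fun d => d.out * v * d.out⁻¹ with hx
  have xW : ∀ d, x d ∈ W := fun d => h.cjm hv _
  have lin : ∀ φ : T → ZMod 2, (∀ w ∈ W, ∀ w' ∈ W, φ (w * w') = φ w + φ w') → (∀ w ∈ ZZ T 3, φ w = 0) →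
      ∀ w ∈ W, φ w = ∑ d, X w d * φ (x d) := by
    intro φ p1 p2 w hw
    obtain ⟨u, hu, a1, a2⟩ := h6 (fun u f => φ u = ∑ d, f d * φ (x d)) (by simp [p2 1 (one_mem _)])
      (fun u hu u' hu' f f' a a' => by
        rw [p1 u hu u' hu', a, a', ← Finset.sum_add_distrib]
        exact Finset.sum_congr rfl fun d _ => by rw [Pi.add_apply, add_mul])
      (fun d => by simp [Pi.single_apply, hx]) (X w)
    rw [cong φ p1 p2 w hw u hu a1.symm, a2]
  set s : T ⧸ W → ZMod 2 := fun d => sg ⁅v, x d⁆ with hs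
  have s0 : ∀ g : T, sg ⁅v, g * v * g⁻¹⁆ = s g := fun g =>
    cong (fun y => sg ⁅v, y⁆) (fun _ a _ a' => h.bt_mul hv a a') (fun _ a => h.bt_z hv a) _ (h.cjm hv g) _ (xW g)
      (funext fun d => by simp only [hx, h2 v hv, QuotientGroup.out_eq'])
  have s1 : ∀ d d', sg ⁅x d, x d'⁆ = s (d⁻¹ * d') := fun d d' => by
    have := s0 (d.out⁻¹ * d'.out)
    rw [QuotientGroup.mk_mul, QuotientGroup.mk_inv, QuotientGroup.out_eq', QuotientGroup.out_eq'] at this
    rw [← this, ← bt_cj d.out v]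
    congr 2
    simp only [hx]; group
  have s2 : s 1 = 0 := by
    have := s0 1
    simpa [sg_one] using this.symm
  have s3 : ∀ d, s d⁻¹ = s d := fun d => by
    have a := s1 d 1
    have b := s1 1 d
    rw [mul_one] at a
    rw [inv_one, one_mul, bt_symm] at b
    exact a.symm.trans b
  have s4 : ∀ g ∈ E, (g : T ⧸ W) * g = 1 → s g = 0 := fun g hg a => by
    by_cases hgW : g ∈ W
    · rw [(QuotientGroup.eq_one_iff g).2 hgW, s2]
    rw [← QuotientGroup.mk_mul, QuotientGroup.eq_one_iff] at a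
    rw [← s0, sg_eq]
    have a1 := h.cm hv (h.cjm hv g)
    refine e4 g hg hgW _ a1 ?_
    have a2 := h.comm (h.cjm hv g) (h.cm a hv)
    have a3 := h.comm hv (h.cm a hv)
    rw [← mul_inv_eq_iff_eq_mul, conjugate_commutatorElement,
      show g * (g * v * g⁻¹) * g⁻¹ = ⁅g * g, v⁆ * v by rw [commutatorElement_def]; group,
      ← inv_self (h.elem a1), commutatorElement_inv]
    generalize ⁅g * g, v⁆ = k at a2 a3
    generalize g * v * g⁻¹ = y at a2
    calc ⁅y, k * v⁆ = (y * k) * v * y⁻¹ * v⁻¹ * k⁻¹ := by rw [commutatorElement_def]; group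
      _ = k * ⁅y, v⁆ * k⁻¹ := by rw [← a2, commutatorElement_def]; group
      _ = _ := by
        rw [mul_inv_eq_iff_eq_mul]
        exact ((Commute.mul_right a2 a3).mul_right (Commute.inv_right a2)).mul_right (Commute.inv_right a3)
  have s5 : ∑ d, s d = 0 := by
    have := lin (fun y => sg ⁅v, y⁆) (fun _ a _ a' => h.bt_mul hv a a') (fun _ a => h.bt_z hv a) c (h.W4 hc)
    simp only [h4, one_mul] at this
    rw [← this, commutatorElement_eq_one_iff_mul_comm.2 (mem_centralizer_iff.1 (hn hc) v hv), sg_one]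
  set z : T ⧸ W := e.symm (.r 2) with hz
  have ez : e z = .r 2 := e.apply_symm_apply _
  obtain ⟨t, ht⟩ := QuotientGroup.mk_surjective (e.symm (.r 1))
  have tz : ((t * t : T) : T ⧸ W) = z := by
    rw [QuotientGroup.mk_mul, ht, ← map_mul]; rfl
  have zc : ∀ d, z * d = d * z := fun d => e.injective (by
    rw [map_mul, map_mul, ez]; generalize e d = d'; revert d'; decide)
  have z2 : ∀ d, z * (z * d) = d := fun d => e.injective (by
    rw [map_mul, map_mul, ez]; generalize e d = d'; revert d'; decide)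
  have zi : z⁻¹ = z := inv_self (by simpa using z2 1)
  have z1 : z ≠ 1 := fun a => by rw [a, map_one] at ez; revert ez; decide
  have s6 : ∀ d, s (z * d) = s d := by
    have := d4_aux (fun d => s (e.symm d)) (by rw [← s2, ← map_one e.symm]; rfl)
      (by rw [← hz, ← tz]; exact s4 _ (e1 t) (by rw [tz]; simpa using z2 1))
      (by rw [← s3 (e.symm (.r 1)), ← map_inv]; rfl) i
      (by
        rw [← e3, e.symm_apply_apply]
        exact s4 b hb (e.injective (by rw [map_mul, e3, map_one]; clear e3; revert i; decide)))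
      (by
        rw [map_mul, ← hz, ← tz, ← e3, e.symm_apply_apply, ← QuotientGroup.mk_mul]
        exact s4 _ (mul_mem hb (e1 t)) (e.injective (by
          rw [QuotientGroup.mk_mul, tz, map_mul, map_mul, e3, ez, map_one]; clear e3; revert i; decide)))
      (by rw [← s5]; exact Fintype.sum_equiv e.symm.toEquiv _ _ fun _ => rfl)
    intro d
    have a := this (e d)
    simpa only [map_mul, e.symm_apply_apply] using a
  have xi : ∀ w ∈ W, X w⁻¹ = X w := fun w hw => by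
    have := h1 _ (inv_mem hw) _ hw
    rw [inv_mul_cancel, (h3 1 (one_mem _)).2 (one_mem _)] at this
    exact funext fun d => u2 _ _ (congrFun this d).symm
  let Y : Subgroup T :=
    { carrier := {w | w ∈ W ∧ ∀ d, X w (z * d) = X w d}
      one_mem' := ⟨one_mem _, fun d => by rw [(h3 1 (one_mem _)).2 (one_mem _)]; rfl⟩
      mul_mem' := fun {a b} ha hb => ⟨mul_mem ha.1 hb.1, fun d => by
        rw [h1 _ ha.1 _ hb.1, Pi.add_apply, Pi.add_apply, ha.2, hb.2]⟩
      inv_mem' := fun {a} ha => ⟨inv_mem ha.1, by rw [xi a ha.1]; exact ha.2⟩ }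
  have YW : Y ≤ W := fun _ a => a.1
  have Y3 : ZZ T 3 ≤ Y := fun w a => ⟨h.W3 a, fun d => by rw [(h3 w (h.W3 a)).2 a]; rfl⟩
  have rad : ∀ w ∈ Y, ∀ y ∈ W, sg ⁅w, y⁆ = 0 := fun w hw y hy => by
    rw [lin (fun y => sg ⁅w, y⁆) (fun _ a _ a' => h.bt_mul hw.1 a a') (fun _ a => h.bt_z hw.1 a) y hy]
    refine Finset.sum_eq_zero fun d' _ => ?_
    rw [lin (fun y => sg ⁅y, x d'⁆) (fun _ a _ a' => h.bt_mul' a a' (xW _))
      (fun _ a => by rw [bt_symm, h.bt_z (xW _) a]) w hw.1]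
    rw [Finset.sum_ninvolution (fun d => z * d) (fun d => ?_) (fun d _ a => z1 (by simpa using a))
      (fun _ => Finset.mem_univ _) z2, mul_zero]
    rw [hw.2, s1, s1, mul_inv_rev, zi, ← zc, mul_assoc, s6, z2_add]
  have qy : ∀ w ∈ Y, sg (w * w) = 0 := fun w hw => by
    obtain ⟨u, hu, a1, -⟩ := h6 (fun _ _ => True) trivial (fun _ _ _ _ _ _ _ _ => trivial) (fun _ => trivial)
      (fun d => if e d ∈ trv then X w d else 0)
    have hy := h.cjm hu z.out
    have a2 : X (u * (z.out * u * z.out⁻¹)) = X w := funext fun d => by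
      have a3 : ∀ d' : DihedralGroup 4, (.r 2 * d' ∈ trv ↔ d' ∉ trv) := by decide
      rw [h1 _ hu _ hy, Pi.add_apply, h2 u hu, QuotientGroup.out_eq', zi, a1]
      simp only [map_mul, ez, a3, hw.2]
      by_cases a : e d ∈ trv <;> simp [a]
    have hy' : u * (z.out * u * z.out⁻¹) ∈ Y := ⟨mul_mem hu hy, by rw [a2]; exact hw.2⟩
    have a3 := h.qq_mul hw.1 hy'.1
    rw [h.elem (zz _ hw.1 _ hy'.1 a2.symm), sg_one, rad w hw _ hy'.1, h.qq_mul hu hy, qq_cj, z2_add] at a3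
    have a4 := rad _ hy' u hu
    rw [bt_symm, h.bt_mul hu hu hy, commutatorElement_self, sg_one] at a4
    linear_combination -a3 - a4
  have cY := card_le_fun (X := trv → ZMod 2) YW (fun w d => X w (z * e.symm d) + X w (e.symm d))
    fun w hw w' hw' a => ⟨mul_mem (inv_mem hw) hw', fun d => by
      have a3 : ∀ d' : DihedralGroup 4, d' ∈ trv ∨ .r 2 * d' ∈ trv := by decide
      rw [h1 _ (inv_mem hw) _ hw', xi w hw, Pi.add_apply, Pi.add_apply]
      have u3 : ∀ p q p' q' : ZMod 2, p + q = p' + q' → p + p' = q + q' := by decide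
      rcases a3 (e d) with a4 | a4
      · have := congrFun a ⟨_, a4⟩
        simp only [e.symm_apply_apply] at this
        exact u3 _ _ _ _ this
      · have := congrFun a ⟨_, a4⟩
        simp only [map_mul, e.symm_apply_apply, ← hz, z2] at this
        exact (u3 _ _ _ _ this).symm⟩
  rw [Nat.card_fun, Nat.card_zmod, Nat.card_eq_fintype_card (α := trv), Fintype.card_coe,
    show trv.card = 4 by decide, h.cards.2.1] at cY
  have hm := mul_mem hv (h.cjm hv b)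
  obtain ⟨S, l1, l2, l3, l4⟩ := ex_adj Y3 YW (fun _ => h.sq) (fun _ a _ a' => h.cm a a') hm
  have qm := h.qq_mul hv (h.cjm hv b)
  rw [qq_cj, z2_add, s0, s4 b hb (e.injective (by rw [map_mul, e3, map_one]; clear e3; revert i; decide)), add_zero] at qm
  have mY : v * (b * v * b⁻¹) ∉ Y := fun a => by
    have a1 := a.2 1
    have n1 : (b : T ⧸ W)⁻¹ * (z * 1) ≠ 1 := fun a => by
      have := congrArg e a
      rw [map_mul, map_inv, mul_one, e3, ez, map_one] at this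
      clear e3; revert i; decide
    have n2 : (b : T ⧸ W)⁻¹ * 1 ≠ 1 := fun a => by
      have := congrArg e a
      rw [mul_one, map_inv, e3, map_one] at this
      clear e3; revert i; decide
    rw [h1 _ hv _ (h.cjm hv b), Pi.add_apply, Pi.add_apply, h2 v hv, h2 v hv, h5, Pi.single_eq_of_ne n1,
      Pi.single_eq_of_ne n2, mul_one, Pi.single_eq_of_ne z1, Pi.single_eq_same] at a1
    revert a1; decide
  generalize v * (b * v * b⁻¹) = m at *
  have cS := two_card_le (lt_of_le_of_ne l1 fun a => mY (a ▸ l3))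
  have b1 : ∀ w ∈ S, sg ⁅w, m⁆ = 0 := fun w hw => by
    rcases (l4 w).1 hw with a | a
    · exact rad w a m hm
    · have := rad _ a m hm
      rwa [h.bt_mul' (l2 hw) hm hm, commutatorElement_self, sg_one, add_zero] at this
  refine h.noS l2 (by omega) ((zz_le 2).trans (Y3.trans l1)) (fun w hw => ?_) fun w hw w' hw' => ?_
  · rcases (l4 w).1 hw with a | a
    · exact qy w a
    · have := qy _ a
      rwa [h.qq_mul (l2 hw) hm, qm, b1 w hw, add_zero, add_zero] at this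
  · rcases (l4 w).1 hw with a | a
    · exact rad w a w' (l2 hw')
    · have := rad _ a w' (l2 hw')
      rwa [h.bt_mul' (l2 hw) hm (l2 hw'), bt_symm m, b1 w' hw', add_zero] at this

theorem cent : W ⊓ centralizer (W : Set T) = ZZ T 3 := by
  haveI := h.normal
  refine le_antisymm ?_ (le_inf h.W3 fun c hc => mem_centralizer_iff.2 fun w hw => (h.comm hw hc).symm)
  by_contra hn
  exact h.not_cent ((h.chain le_rfl hn).trans inf_le_right)

/-- `W` has index at most two modulo the derived group of `T` -/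
theorem gen2 : ∃ v ∈ W, ∀ w ∈ W, w ∈ commutator T ∨ w * v ∈ commutator T := by
  haveI := h.normal
  obtain ⟨c, hc, hc'⟩ := h.ex (k := 3) le_rfl
  obtain ⟨X, v, hv, h1, -, h3, -, -, h6⟩ := h.free' hc hc'
  have l : ZZ T 3 ≤ W ⊓ commutator T := le_inf h.W3 (h.der ▸ commutator_mono le_top le_top)
  obtain ⟨S, l1, l2, l3, l4⟩ := ex_adj l inf_le_left (fun _ => h.sq) (fun _ a _ a' => h.cm a a') hv
  refine ⟨v, hv, fun w hw => ?_⟩
  obtain ⟨u, hu, a1, a2⟩ := h6 (fun u _ => u ∈ S) (one_mem _) (fun _ _ _ _ _ _ a a' => mul_mem a a')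
    (fun d => by
      rw [show d.out * v * d.out⁻¹ = ⁅d.out, v⁆ * v by rw [commutatorElement_def]; group]
      refine mul_mem (l1 ⟨?_, commutator_mem_commutator (mem_top _) (mem_top _)⟩) l3
      exact W.mul_mem (h.cjm hv _) (W.inv_mem hv)) (X w)
  have a3 : w * u ∈ S := l1 (l ((h3 _ (mul_mem hw hu)).1 (by
    rw [h1 w hw u hu, a1]; exact funext fun d => z2_add _)))
  exact ((l4 w).1 ((mul_mem_cancel_right a2).1 a3)).imp (fun a => a.2) fun a => a.2

end RH

end Cfsg.Agent.H15T
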