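import Cfsg.Agent.H15T.Ru2
import Cfsg.Agent.H3.Frobenius

/-! 2-groups of Rudvalis type, part 3: automorphisms of odd order and weak closure. -/

set_option autoImplicit false
set_option linter.style.haveILetI false

namespace Cfsg.Agent.H15T

open Subgroup Cfsg.Agent.H20 Cfsg.Agent.H21 Cfsg.Agent.BG
open scoped commutatorElement

section
variable {T : Type*} [Group T]

theorem chr_iff (C : Subgroup T) [hC : C.Characteristic] (σ : MulAut T) (x : T) : σ x ∈ C ↔ x ∈ C :=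
  SetLike.ext_iff.1 (characteristic_iff_comap_eq.1 hC σ) x

theorem stab (hT : IsPGroup 2 T) (σ : MulAut T) {n : ℕ} (hn : Odd n) (hσ : σ ^ n = 1) (C : Subgroup T)
    [C.Characteristic] {x : T} (h : (x⁻¹ * σ x)⁻¹ * σ (x⁻¹ * σ x) ∈ C) : x⁻¹ * σ x ∈ C := by
  set a := x⁻¹ * σ x with ha
  have k1 : ∀ m : ℕ, (((σ ^ m) a : T) : T ⧸ C) = a := by
    intro m
    induction m with
    | zero => rfl
    | succ m ih =>
      rw [pow_succ, MulAut.mul_apply, show σ a = a * (a⁻¹ * σ a) by group, map_mul, QuotientGroup.mk_mul, ih,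
        (QuotientGroup.eq_one_iff _).2 ((chr_iff C _ _).2 h), mul_one]
  have k2 : ∀ m : ℕ, (((σ ^ m) x : T) : T ⧸ C) = x * (a : T ⧸ C) ^ m := by
    intro m
    induction m with
    | zero => simp
    | succ m ih =>
      rw [pow_succ, MulAut.mul_apply, show σ x = x * a by rw [ha]; group, map_mul, QuotientGroup.mk_mul, ih, k1,
        pow_succ, mul_assoc]
  have k3 := k2 n
  rw [hσ, MulAut.one_apply, left_eq_mul] at k3
  obtain ⟨j, hj⟩ := hT.to_quotient C (a : T ⧸ C)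
  rw [← QuotientGroup.eq_one_iff, ← orderOf_eq_one_iff]
  exact Nat.eq_one_of_dvd_coprimes ((Nat.coprime_two_right.2 hn).pow_right j) (orderOf_dvd_of_pow_eq_one k3)
    (orderOf_dvd_of_pow_eq_one hj)

variable [Finite T]

namespace RH
variable {W : Subgroup T} (h : RH W)
include h

theorem aut_z (σ : MulAut T) {n : ℕ} (hn : Odd n) (hσ : σ ^ n = 1) {x : T} (hx : x ∈ ZZ T 3) : σ x = x := by
  have k : ∀ j ≤ 3, ∀ y ∈ ZZ T (j + 1), y⁻¹ * σ y ∈ ZZ T j := fun j hj y hy =>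
    (h.two hj (inv_mem hy) ((chr_iff _ σ y).2 hy)).2 (by rw [inv_mem_iff, chr_iff])
  have a1 := stab h.hT σ hn hσ _ (k 1 (by omega) _ (k 2 (by omega) x hx))
  have a2 := stab h.hT σ hn hσ _ (k 0 (by omega) _ a1)
  rw [ZZ, Subgroup.upperCentralSeries_zero, mem_bot, inv_mul_eq_one] at a2
  exact a2.symm

theorem aut_w (σ : MulAut T) {n : ℕ} (hn : Odd n) (hσ : σ ^ n = 1) (t : T) : t⁻¹ * σ t ∈ W := by
  rw [h.hW]
  refine mem_centralizer_iff.2 fun z hz => ?_
  have a := h.aut_z σ hn hσ (Normal.conj_mem inferInstance z hz t)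
  rw [map_mul, map_mul, map_inv, h.aut_z σ hn hσ hz] at a
  calc z * (t⁻¹ * σ t) = t⁻¹ * (t * z * t⁻¹) * σ t := by group
    _ = _ := by rw [← a]; group

theorem aut_comm (σ : MulAut T) {n : ℕ} (hn : Odd n) (hσ : σ ^ n = 1) (t : T) : t⁻¹ * σ t ∈ commutator T := by
  obtain ⟨v, -, hv⟩ := h.gen2
  refine stab h.hT σ hn hσ _ ?_
  have hw := h.aut_w σ hn hσ t
  generalize t⁻¹ * σ t = w at hw
  by_cases a : w ∈ commutator T
  · exact mul_mem (inv_mem a) ((chr_iff _ σ w).2 a)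
  have a1 := (hv w hw).resolve_left a
  have a2 := (hv (σ w) ((mul_mem_cancel_left (inv_mem hw)).1 (h.aut_w σ hn hσ w))).resolve_left
    (by rwa [chr_iff])
  rw [show w⁻¹ * σ w = w⁻¹ * (σ w * v * (w * v)⁻¹) * w by group]
  exact Normal.conj_mem' inferInstance _ (mul_mem a2 (inv_mem a1)) w

end RH
end

variable {G : Type*} [Group G] [Finite G] {P : Subgroup G} {W : Subgroup P}

namespace RH
variable (h : RH W)
include h

theorem odd_cent {g : G} (hg : g ∈ N⟦P⟧) (ho : Odd (orderOf g)) : g ∈ C⟦P⟧ := by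
  have hA : zpowers g ≤ N⟦P⟧ := zpowers_le.2 hg
  refine coprime_cent_frattiniOf hA ?_ (le_trans ?_ (der_le_frattiniOf h.hT.isNilpotent)) (mem_zpowers g)
  · rw [h.cards.2.2.2, Nat.card_zpowers]
    exact (Nat.coprime_two_left.2 ho).pow_left _
  refine commutator_le.2 fun t ht a ha => ?_
  have := h.aut_comm (P.normalizerMonoidHom ⟨a, hA ha⟩) ho (by
    rw [← map_pow, ← map_one P.normalizerMonoidHom]
    congr 1
    obtain ⟨k, rfl⟩ := mem_zpowers_iff.1 ha
    ext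
    simp only [SubmonoidClass.coe_pow, OneMemClass.coe_one]
    rw [← zpow_natCast, ← zpow_mul, mul_comm, zpow_mul, zpow_natCast, pow_orderOf_eq_one, one_zpow]) (⟨t, ht⟩⁻¹)
  rw [← map_subtype_commutator]
  refine ⟨_, this, ?_⟩
  rw [commutatorElement_def, mul_assoc, mul_assoc, ← mul_assoc a, inv_inv]
  rfl

theorem g_hd {K S : Subgroup G} (hS : S ≤ W.map P.subtype) (hc : 2 ^ 8 ≤ ♯S) (hKS : K ≤ S)
    (h2 : ∀ s ∈ S, s * s ∈ K) (h3 : ∀ s ∈ S, ∀ t ∈ S, ⁅s, t⁆ ∈ K) : (ZZ P 3).map P.subtype ≤ K := by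
  have hSP : S ≤ P := hS.trans (map_subtype_le _)
  have := h.hd2 (K := K.subgroupOf P) (S := S.subgroupOf P)
    (fun x hx => by
      obtain ⟨y, hy, e⟩ := hS hx
      rwa [← Subtype.ext e])
    (by rwa [Nat.card_congr (subgroupOfEquivOfLe hSP).toEquiv]) (comap_mono hKS) (fun s hs => h2 s hs)
    fun s hs t ht => h3 s hs t ht
  exact map_le_iff_le_comap.2 this

theorem g_sq {w : G} (hw : w ∈ W.map P.subtype) : w * w ∈ (ZZ P 3).map P.subtype := by
  obtain ⟨w, hw, rfl⟩ := hw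
  exact ⟨_, h.sq hw, rfl⟩

theorem g_cm {w w' : G} (hw : w ∈ W.map P.subtype) (hw' : w' ∈ W.map P.subtype) :
    ⁅w, w'⁆ ∈ (ZZ P 3).map P.subtype := by
  obtain ⟨w, hw, rfl⟩ := hw
  obtain ⟨w', hw', rfl⟩ := hw'
  exact ⟨_, h.cm hw hw', rfl⟩

theorem g_W : W.map P.subtype = P ⊓ C⟦(ZZ P 3).map P.subtype⟧ := by
  ext x
  constructor
  · rintro ⟨w, hw, rfl⟩
    refine ⟨w.2, mem_centralizer_iff.2 ?_⟩
    rintro _ ⟨z, hz, rfl⟩
    exact congrArg Subtype.val (h.comm hw hz)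
  · rintro ⟨h1, h2⟩
    refine ⟨⟨x, h1⟩, ?_, rfl⟩
    rw [h.hW]
    exact mem_centralizer_iff.2 fun z hz => Subtype.ext (mem_centralizer_iff.1 h2 z ⟨z, hz, rfl⟩)

theorem g_card : ♯(W.map P.subtype) = 2 ^ 11 ∧ ♯((ZZ P 3).map P.subtype) = 8 := by
  rw [card_map_of_injective P.subtype_injective, card_map_of_injective P.subtype_injective]
  exact ⟨h.cards.2.1, h.card_all.2.2.2⟩

theorem wc {g : G} (hg : cj g (W.map P.subtype) ≤ P) : cj g (W.map P.subtype) = W.map P.subtype := by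
  obtain ⟨c1, c2⟩ := h.g_card
  have hW := h.g_W
  have hd := fun K S => h.g_hd (K := K) (S := S)
  have sq := fun w => h.g_sq (w := w)
  have cm := fun w w' => h.g_cm (w := w) (w' := w')
  have cP := h.cards.2.2.2
  have hWP : W.map P.subtype ≤ P := map_subtype_le _
  generalize W.map P.subtype = V at *
  generalize (ZZ P 3).map P.subtype = Z at *
  have hZV : Z ≤ V := hd V V le_rfl (by omega) le_rfl (fun s hs => mul_mem hs hs)
    fun s hs t ht => mul_mem (mul_mem (mul_mem hs ht) (inv_mem hs)) (inv_mem ht)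
  have a1 : 2 ^ 8 ≤ ♯(V ⊓ cj g V) := by
    have b1 : V.relIndex (cj g V) ≤ V.relIndex P := relIndex_le_of_le_right hg FiniteIndex.index_ne_zero
    have b2 := (V.subgroupOf P).index_mul_card
    rw [Nat.card_congr (subgroupOfEquivOfLe hWP).toEquiv, c1, cP] at b2
    have b3 := ((V ⊓ cj g V).subgroupOf (cj g V)).index_mul_card
    rw [Nat.card_congr (subgroupOfEquivOfLe inf_le_right).toEquiv, card_cj, c1] at b3
    have b4 : ((V ⊓ cj g V).subgroupOf (cj g V)).index = V.relIndex (cj g V) := inf_relIndex_right _ _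
    have b5 : V.relIndex P = 8 := by unfold relIndex; omega
    rw [b4] at b3
    nlinarith
  have a2 := hd ((V ⊓ cj g V) ⊓ cj g Z) _ inf_le_left a1 inf_le_left
    (fun s hs => ⟨mul_mem hs hs, by
      obtain ⟨y, hy, rfl⟩ := hs.2
      exact ⟨_, sq y hy, map_mul _ _ _⟩⟩)
    (fun s hs t ht => ⟨Subgroup.mul_mem _ (Subgroup.mul_mem _ (Subgroup.mul_mem _ hs ht) (Subgroup.inv_mem _ hs)) (Subgroup.inv_mem _ ht), by
      obtain ⟨y, hy, rfl⟩ := hs.2
      obtain ⟨y', hy', rfl⟩ := ht.2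
      exact ⟨_, cm y y' hy hy', map_commutatorElement _ _ _⟩⟩)
  have a3 : Z = cj g Z := eq_of_le_of_card_ge (a2.trans inf_le_right) (by rw [card_cj])
  refine eq_of_le_of_card_ge ?_ (by rw [card_cj])
  rintro _ ⟨y, hy, rfl⟩
  rw [hW]
  refine ⟨hg ⟨y, hy, rfl⟩, mem_centralizer_iff.2 fun z hz => ?_⟩
  rw [a3] at hz
  obtain ⟨z, hz, rfl⟩ := hz
  rw [hW] at hy
  rw [← map_mul, ← map_mul, mem_centralizer_iff.1 hy.2 z hz]

end RH

end Cfsg.Agent.H15T
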