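import Cfsg.Agent.H15T.Ru3
import Cfsg.Agent.H3.Wielandt

/-! 2-groups of Rudvalis type, part 4: the normalizer of `W'` controls transfer. -/

set_option autoImplicit false
set_option linter.style.haveILetI false

namespace Cfsg.Agent.H15T

open Subgroup Cfsg.Agent.H20 Cfsg.Agent.H21 Cfsg.Agent.BG
open scoped commutatorElement Pointwise

variable {G : Type*} [Group G] [Finite G]

/-- the ambient form of the structure of a Sylow 2-subgroup of Rudvalis type -/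
structure RA (P V Z : Subgroup G) : Prop where
  syl : SylowOf 2 P ⊤
  cP : ♯P = 2 ^ 14
  cV : ♯V = 2 ^ 11
  cZ : ♯Z = 8
  ZV : Z ≤ V
  PV : P ≤ N⟦V⟧
  hV : V = P ⊓ C⟦Z⟧
  hd1 : ∀ U ≤ V, 2 ^ 7 ≤ ♯U → Z ≤ U
  hd2 : ∀ K S, S ≤ V → 2 ^ 8 ≤ ♯S → K ≤ S → (∀ s ∈ S, s * s ∈ K) → (∀ s ∈ S, ∀ t ∈ S, ⁅s, t⁆ ∈ K) → Z ≤ K
  sq : ∀ w ∈ V, w * w ∈ Z
  der : ⁅V, V⁆ = Z
  elem : ∀ z ∈ Z, z * z = 1
  nsq : ∃ t ∈ P, t * t ∉ V
  oc : ∀ g ∈ N⟦P⟧, Odd (orderOf g) → g ∈ C⟦P⟧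
  soc : ∃ c ∈ V, c ∉ Z ∧ (∀ t ∈ P, ⁅c, t⁆ ∈ Z) ∧ (∀ y ∈ V, (∀ t ∈ P, ⁅y, t⁆ ∈ Z) → y ∉ Z → y * c ∈ Z) ∧
    ∀ A ≤ P, P ≤ N⟦A⟧ → ¬ A ≤ Z → c ∈ A

theorem RH.ra (T : Sylow 2 G) {W : Subgroup T} (h : RH W) :
    RA (T : Subgroup G) (W.map (T : Subgroup G).subtype) ((ZZ T 3).map (T : Subgroup G).subtype) := by
  haveI := h.normal
  have mm : ∀ (A : Subgroup T) (x : T), (x : G) ∈ A.map (T : Subgroup G).subtype ↔ x ∈ A := fun A x =>
    mem_map_iff_mem (T : Subgroup G).subtype_injective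
  refine ⟨sylowOf_top T, h.cards.2.2.2, h.g_card.1, h.g_card.2, map_mono h.W3, H3.le_normalizer_map_subtype W, h.g_W,
    fun U hU hc => ?_, fun K S => h.g_hd, fun w => h.g_sq, by rw [← map_commutator, h.der], ?_, ?_,
    fun g => h.odd_cent, ?_⟩
  · have hSP : U ≤ T := hU.trans (map_subtype_le _)
    exact map_le_iff_le_comap.2 (h.hd1 (U := U.subgroupOf T) (fun x hx => (mm W x).1 (hU hx))
      (by rwa [Nat.card_congr (subgroupOfEquivOfLe hSP).toEquiv]))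
  · rintro _ ⟨z, hz, rfl⟩
    exact congrArg Subtype.val (h.elem hz)
  · obtain ⟨e, -⟩ := h.d8
    obtain ⟨t, ht⟩ := QuotientGroup.mk_surjective (e.symm (.r 1))
    refine ⟨t, t.2, fun a => ?_⟩
    have := (QuotientGroup.eq_one_iff _).2 ((mm W (t * t)).1 a)
    rw [QuotientGroup.mk_mul, ht, ← map_mul, map_eq_one_iff _ e.symm.injective] at this
    revert this; decide
  · obtain ⟨c, hc, hc'⟩ := h.ex (k := 3) le_rfl
    refine ⟨c, (mm W c).2 (h.W4 hc), fun a => hc' ((mm _ c).1 a), fun t ht => (mm _ _).2 (zz_comm hc ⟨t, ht⟩), ?_,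
      fun A hA hn hZ => ?_⟩
    · rintro _ ⟨y, -, rfl⟩ h1 h2
      refine (mm _ (y * c)).2 ((h.two le_rfl ?_ hc).2 (iff_of_false (fun a => h2 ((mm _ y).2 a)) hc'))
      exact Subgroup.mem_upperCentralSeries_succ_iff.2 fun t => (mm _ _).1 (h1 t t.2)
    · haveI : (A.subgroupOf T).Normal := normal_subgroupOf_of_le_normalizer hn
      exact h.chain (N := A.subgroupOf T) le_rfl (fun a => hZ fun x hx => (mm _ ⟨x, hA hx⟩).2 (a hx)) hc

theorem split_orb {Ω : Type*} [MulAction G Ω] [Fintype Ω] [DecidableEq Ω] {A : Type*} [CommGroup A]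
    {L1 L2 : Subgroup G} (h : L1 ≤ L2) {ω : Ω} (hs : ∀ y ∈ L2, y • ω = ω → y ∈ L1) {x : G} (hx : x ∈ L2)
    (hx' : x ∉ L1) (h2 : ∀ y ∈ L2, y ∉ L1 → x⁻¹ * y ∈ L1) (F : Ω → A) :
    ∏ y ∈ H3.orb L2 ω, F y = (∏ y ∈ H3.orb L1 ω, F y) * ∏ y ∈ x • H3.orb L1 ω, F y := by
  rw [← Finset.prod_union]
  · congr 1
    ext y
    simp only [Finset.mem_union, Finset.mem_smul_finset, H3.mem_orb]
    constructor
    · rintro ⟨l, hl, rfl⟩
      by_cases a : l ∈ L1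
      · exact Or.inl ⟨l, a, rfl⟩
      · exact Or.inr ⟨_, ⟨_, h2 l hl a, rfl⟩, by rw [← mul_smul, mul_inv_cancel_left]⟩
    · rintro (⟨l, hl, rfl⟩ | ⟨_, ⟨l, hl, rfl⟩, rfl⟩)
      exacts [⟨l, h hl, rfl⟩, ⟨x * l, mul_mem hx (h hl), mul_smul _ _ _⟩]
  · refine Finset.disjoint_left.2 fun y h1 h3 => hx' ?_
    obtain ⟨l, hl, rfl⟩ := H3.mem_orb.1 h1
    obtain ⟨_, h4, e⟩ := Finset.mem_smul_finset.1 h3
    obtain ⟨l', hl', rfl⟩ := H3.mem_orb.1 h4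
    have := hs (l⁻¹ * x * l') (mul_mem (mul_mem (inv_mem (h hl)) hx) (h hl')) (by
      rw [mul_smul, mul_smul, e, inv_smul_smul])
    exact (mul_mem_cancel_left (inv_mem hl)).1 ((mul_mem_cancel_right hl').1 this)

theorem ex_max2 {R L : Subgroup G} (hL : IsPGroup 2 L) (h : R < L) :
    ∃ M, R ≤ M ∧ M < L ∧ ♯L = 2 * ♯M := by
  obtain ⟨M, h1, h2, -, h3, -⟩ := H3.exists_index_p_ge hL h
  refine ⟨M, h1, h2, ?_⟩
  have := (M.subgroupOf L).index_mul_card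
  rw [Nat.card_congr (subgroupOfEquivOfLe h2.le).toEquiv] at this
  rw [← this, ← h3]; rfl

namespace RA
variable {P V Z : Subgroup G} (h : RA P V Z)
include h

theorem VP : V ≤ P := h.hV ▸ inf_le_left

theorem VC : V ≤ C⟦Z⟧ := h.hV ▸ inf_le_right

theorem pP : IsPGroup 2 P := h.syl.isPGroup

theorem cm {w w' : G} (hw : w ∈ V) (hw' : w' ∈ V) : ⁅w, w'⁆ ∈ Z := h.der ▸ commutator_mem_commutator hw hw'

theorem NZ : N⟦V⟧ ≤ N⟦Z⟧ := h.der ▸ norm_der le_rfl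

theorem PZ : P ≤ N⟦Z⟧ := h.PV.trans h.NZ

theorem big0 {U : Subgroup G} (hU : U ≤ V) (hc : 2 ^ 10 ≤ ♯U) {g : G} (hg : cj g U ≤ P) : g ∈ N⟦Z⟧ := by
  have c1 := card_sup_of_norm (A := cj g U) (B := V) (Or.inl (hg.trans h.PV))
  have c2 : ♯(cj g U ⊔ V) ≤ 2 ^ 14 := h.cP ▸ card_le_of_le (sup_le hg h.VP)
  rw [card_cj, h.cV] at c1
  have a1 : cj g Z ≤ V := by
    have := h.hd1 (cj g⁻¹ (cj g U ⊓ V)) (by
      refine (cj_mono _ inf_le_left).trans ?_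
      rw [cj_cj, inv_mul_cancel, cj_one]; exact hU) (by rw [card_cj]; nlinarith)
    have := cj_mono g this
    rw [cj_cj, mul_inv_cancel, cj_one] at this
    exact this.trans inf_le_right
  have a2 : ∀ s ∈ cj g U, s * s ∈ cj g Z := by
    rintro _ ⟨y, hy, rfl⟩
    exact ⟨_, h.sq y (hU hy), map_mul _ _ _⟩
  have a3 : cj g U ⊔ V < P := by
    refine lt_of_le_of_ne (sup_le hg h.VP) fun e => ?_
    obtain ⟨t, ht, ht'⟩ := h.nsq
    rw [← e] at ht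
    obtain ⟨s, hs, w, hw, rfl⟩ := (mem_sup_of_norm (hg.trans h.PV)).1 ht
    refine ht' ?_
    rw [show s * w * (s * w) = s * s * (s⁻¹ * w * s⁻¹⁻¹) * w by group]
    exact mul_mem (mul_mem (a1 (a2 s hs)) ((mem_normalizer_iff.1 (inv_mem (h.PV (hg hs))) w).1 hw)) hw
  have c3 := two_card_le a3
  rw [h.cP] at c3
  have a4 := h.hd2 ((cj g U ⊓ V) ⊓ cj g Z) _ inf_le_right (by nlinarith) inf_le_left
    (fun s hs => ⟨mul_mem hs hs, a2 s hs.1⟩)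
    (fun s hs t ht => ⟨Subgroup.mul_mem _ (Subgroup.mul_mem _ (Subgroup.mul_mem _ hs ht) (Subgroup.inv_mem _ hs))
      (Subgroup.inv_mem _ ht), by
      obtain ⟨y, hy, rfl⟩ := hs.1
      obtain ⟨y', hy', rfl⟩ := ht.1
      exact ⟨_, h.cm (hU hy) (hU hy'), map_commutatorElement _ _ _⟩⟩)
  exact mem_norm_of_le_cj (a4.trans inf_le_right)

theorem big {U : Subgroup G} (hU : U ≤ V) (hc : 2 ^ 10 ≤ ♯U) {g : G} (hg : cj g U ≤ N⟦Z⟧) : g ∈ N⟦Z⟧ := by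
  obtain ⟨m, hm, h1⟩ := (h.syl.of_le h.PZ le_top).exists_cj_le (H21.isPGroup_cj.2 (h.pP.to_le (hU.trans h.VP))) hg
  rw [cj_cj] at h1
  exact (mul_mem_cancel_left hm).1 (h.big0 hU hc h1)

section
variable {Ω : Type*} [MulAction G Ω] [Fintype Ω] [DecidableEq Ω] {c : G → Ω → ℤˣ} (hc : H3.IsCocycle c) {ω : Ω}
include hc

theorem tr1 {L : Subgroup G} (hL : L ≤ V) (h8 : 2 ^ 8 ≤ ♯L) {z : G} (hz : z ∈ Z) :
    ∏ y ∈ H3.orb L ω, c z y = 1 := by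
  let f := hc.finset.hom L (H3.orb L ω) fun g hg => H3.smul_orb_of_mem hg
  have h1 := f.ker.index_mul_card
  have h2 : f.ker.index ≤ 2 := by
    rw [index_ker]
    exact (card_le_card_group _).trans (by simp)
  obtain ⟨y, hy, rfl⟩ := h.hd1 (f.ker.map L.subtype) ((map_subtype_le _).trans hL)
    (by rw [card_map_subtype]; nlinarith) hz
  exact hy

theorem tr2 {L1 L2 : Subgroup G} (h1 : L1 ≤ L2) (hL : L2 ≤ V) (h8 : 2 ^ 8 ≤ ♯L1) (h2 : ♯L2 = 2 * ♯L1)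
    (hs : ∀ y ∈ L2, y • ω = ω → y ∈ L1) {w : G} (hw : w ∈ L2) : ∏ y ∈ H3.orb L2 ω, c w y = 1 := by
  have k : ∀ x ∈ L2, x ∉ L1 → ∀ y ∈ L2, y ∉ L1 → x⁻¹ * y ∈ L1 := fun x hx hx' y hy hy' =>
    (two_iff h1 h2 (inv_mem hx) hy).2 (iff_of_false (by rwa [inv_mem_iff]) hy')
  by_cases a : w ∈ L1
  · obtain ⟨x, hx, hx'⟩ : ∃ x ∈ L2, x ∉ L1 := by
      by_contra! hn
      have := card_le_of_le (show L2 ≤ L1 from hn)
      omega
    have a1 : x⁻¹ * w * x ∈ L1 := by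
      rw [mul_assoc]
      exact k x hx hx' _ (mul_mem hw hx) (by rwa [mul_mem_cancel_left a])
    have a2 := hc.finset.conj (H3.smul_orb_of_mem (ω := ω) a1) x
    have a3 := hc.finset.mul_of_fixed (H3.smul_orb_of_mem (ω := ω) a1) w
    simp only [show x * (x⁻¹ * w * x) * x⁻¹ = w by group] at a2 a3
    rw [split_orb h1 hs hx hx' (k x hx hx'), a2, ← a3]
    refine h.tr1 hc (h1.trans hL) h8 ?_
    rw [show w * (x⁻¹ * w * x) = w * w * ⁅w⁻¹, x⁻¹⁆ by rw [commutatorElement_def]; group]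
    exact mul_mem (h.sq w (hL hw)) (h.cm (inv_mem (hL hw)) (inv_mem (hL hx)))
  · have a3 := hc.finset w w (H3.orb L1 ω)
    rw [split_orb h1 hs hw a (k w hw a), mul_comm]
    exact a3.symm.trans (h.tr1 hc (h1.trans hL) h8 (h.sq w (hL hw)))

theorem tr3 (hω : ♯(V ⊓ MulAction.stabilizer G ω) < 2 ^ 10) {s : G} (hs : s ∈ P)
    (hsY : s • H3.orb V ω = H3.orb V ω) : ∏ y ∈ H3.orb V ω, c s y = 1 := by
  have cV := h.cV
  obtain ⟨w, hw, e⟩ := H3.mem_orb.1 (hsY ▸ Finset.smul_mem_smul_finset (a := s) (H3.self_mem_orb (H := V) (ω := ω)))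
  set S := P ⊓ MulAction.stabilizer G ω with hS
  have hu : w⁻¹ * s ∈ S := mem_inf.2 ⟨mul_mem (inv_mem (h.VP hw)) hs, by
    rw [MulAction.mem_stabilizer_iff, mul_smul, ← e, inv_smul_smul]⟩
  have nV : ¬ V ≤ S := fun a => by
    rw [inf_eq_left.2 (a.trans inf_le_right)] at hω; omega
  obtain ⟨M, m1, m2, m3⟩ := ex_max2 (h.pP.to_le (sup_le inf_le_left h.VP)) (left_lt_sup.2 nV)
  have m4 : ¬ V ≤ M := fun a => m2.not_ge (sup_le m1 a)
  have tw : ∀ {x y : G}, x ∈ S ⊔ V → y ∈ S ⊔ V → (x * y ∈ M ↔ (x ∈ M ↔ y ∈ M)) := two_iff m2.le m3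
  have c1 := card_half (U := M ⊓ V) (S := V) inf_le_right fun x hx y hy => by
    simp only [mem_inf, hx, hy, mul_mem hx hy, and_true]
    exact tw (mem_sup_right hx) (mem_sup_right hy)
  have c2 := two_card_le (inf_lt_right.2 m4)
  have st : ∀ y ∈ V, y • ω = ω → y ∈ M ⊓ V := fun y hy a => ⟨m1 ⟨h.VP hy, a⟩, hy⟩
  obtain ⟨L, l1, l2, l3⟩ := ex_max2 (R := V ⊓ MulAction.stabilizer G ω) (h.pP.to_le (inf_le_right.trans h.VP))
    (lt_of_le_of_ne (fun y hy => st y hy.1 hy.2) fun a => by rw [a] at hω; omega)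
  have t0 : ∀ y ∈ M ⊓ V, ∏ x ∈ H3.orb (M ⊓ V) ω, c y x = 1 := fun y hy =>
    h.tr2 hc l2.le inf_le_right (by omega) l3 (fun y hy a => l1 ⟨hy.2, a⟩) hy
  have t1 := h.tr2 hc (L1 := M ⊓ V) inf_le_right le_rfl (by omega) (by omega) st hw
  rw [show s = w * (w⁻¹ * s) by group] at hsY ⊢
  generalize w⁻¹ * s = u at hu hsY
  have uV := h.PV hu.1
  have f1 : u • H3.orb V ω = H3.orb V ω := by rw [H3.smul_orb uV, hu.2]
  have t2 := hc.finset.mul_of_fixed f1 w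
  rw [t2, t1, one_mul]
  have uM : u ∈ N⟦M ⊓ V⟧ := norm_inf (X := zpowers u) (zpowers_le.2 (le_normalizer (m1 hu))) (zpowers_le.2 uV)
    (mem_zpowers u)
  have f2 : u • H3.orb (M ⊓ V) ω = H3.orb (M ⊓ V) ω := by rw [H3.smul_orb uM, hu.2]
  obtain ⟨x, hx, hx'⟩ := SetLike.not_le_iff_exists.1 m4
  have a1 : u⁻¹ * x⁻¹ * u * x ∈ M ⊓ V := by
    have b1 : u⁻¹ * x⁻¹ * u ∈ V := by
      simpa using (mem_normalizer_iff.1 (inv_mem uV) _).1 (inv_mem hx)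
    refine ⟨(tw (mem_sup_right b1) (mem_sup_right hx)).2 (iff_of_false ?_ hx'), mul_mem b1 hx⟩
    rwa [mul_mem_cancel_right (m1 hu), mul_mem_cancel_left (inv_mem (m1 hu)), inv_mem_iff]
  have f3 := H3.smul_orb_of_mem (ω := ω) a1
  have f4 : (u * (u⁻¹ * x⁻¹ * u * x)) • H3.orb (M ⊓ V) ω = H3.orb (M ⊓ V) ω := by rw [mul_smul, f3, f2]
  have a2 := hc.finset.conj f4 x
  have a3 := hc.finset.mul_of_fixed f3 u
  simp only [show x * (u * (u⁻¹ * x⁻¹ * u * x)) * x⁻¹ = u by group] at a2 a3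
  rw [split_orb inf_le_right st hx (fun a => hx' a.1) (fun y hy a => ⟨(tw (mem_sup_right (inv_mem hx))
    (mem_sup_right hy)).2 (iff_of_false (by rwa [inv_mem_iff]) fun b => a ⟨b, hy⟩), V.mul_mem (V.inv_mem hx) hy⟩),
    a2, a3, t0 _ a1, mul_one, Int.units_mul_self]

end

theorem transfer_eq (φ : N⟦Z⟧ →* ℤˣ) {t : G} (ht : t ∈ P) : MonoidHom.transfer φ t = φ ⟨t, h.PZ ht⟩ := by
  classical
  let := Fintype.ofFinite (G ⧸ N⟦Z⟧)
  have hc := H3.isCocycle_tc φ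
  have hfix : ∀ g ∈ N⟦Z⟧, g • ((1 : G) : G ⧸ N⟦Z⟧) = (1 : G) := fun g hg =>
    H3.smul_coe_eq_iff.mpr (by simpa using hg)
  have hH : V ⊔ zpowers t ≤ N⟦Z⟧ := (sup_le h.VP (zpowers_le.2 ht)).trans h.PZ
  have key := H3.prod_eq_of_forall_orb (V ⊔ zpowers t) (X := Finset.univ)
    (fun _ _ => Finset.subset_univ _) (F := H3.tc φ t)
    (F' := fun x => if x = ((1 : G) : G ⧸ N⟦Z⟧) then φ ⟨t, h.PZ ht⟩ else 1) fun ω _ => ?_
  · rwa [← H3.transfer_eq_prod_tc, Finset.prod_ite_eq', if_pos (Finset.mem_univ _)] at key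
  by_cases hω : ω = ((1 : G) : G ⧸ N⟦Z⟧)
  · rw [hω, H3.orb_eq_singleton fun g hg => hfix g (hH hg), Finset.prod_singleton, Finset.prod_singleton, if_pos rfl,
      H3.tc_coe φ (by simpa using h.PZ ht)]
    congr 1
    exact Subtype.ext (by simp)
  rw [Finset.prod_ite_eq', if_neg fun a => hω (Finset.mem_singleton.mp (by
    rw [← H3.orb_eq_singleton fun g hg => hfix g (hH hg), H3.orb_eq_of_mem a]; exact H3.self_mem_orb)),
    hc.prod_orb_sup (h.PV ht)]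
  refine h.tr3 hc ?_ (pow_mem ht _) (MulAction.pow_period_smul _ _)
  by_contra! hn
  obtain ⟨g, rfl⟩ := QuotientGroup.mk_surjective ω
  have := h.big inf_le_left hn (g := g⁻¹) (fun x hx => by
    rw [mem_cj_inv] at hx
    simpa [mul_assoc] using H3.smul_coe_eq_iff.1 hx.2)
  exact hω (QuotientGroup.eq.2 (by simpa using this))

theorem no_sign (h2 : ∀ H : Subgroup G, H.index ≠ 2) (φ : N⟦Z⟧ →* ℤˣ) {t : G} (ht : t ∈ P) :
    φ ⟨t, h.PZ ht⟩ = 1 := by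
  by_contra hn
  rw [← h.transfer_eq φ ht] at hn
  refine h2 (MonoidHom.transfer φ).ker ?_
  rw [index_ker, (eq_top_iff (a := (MonoidHom.transfer φ).range)).2 fun u _ => ?_, card_top]
  · simp
  · rcases Int.units_eq_one_or u with rfl | rfl
    · exact one_mem _
    · exact ⟨t, (Int.units_eq_one_or _).resolve_left hn⟩

end RA

end Cfsg.Agent.H15T
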