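import Cfsg.Agent.H15T.Ru4
import Cfsg.Agent.H3.Action
import Cfsg.Agent.H26.AutP
import Cfsg.Agent.H12.Lin
import Cfsg.Agent.FT

/-! 2-groups of Rudvalis type, part 5: the normalizers of `W'` and `W`. -/

set_option autoImplicit false
set_option linter.style.haveILetI false

namespace Cfsg.Agent.H15T

open Subgroup Cfsg.Agent.H20 Cfsg.Agent.H21 Cfsg.Agent.BG
open scoped commutatorElement Pointwise

theorem gl32_simple : IsSimpleGroup (GL (Fin 3) (ZMod 2)) := by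
  have hc : Subgroup.center (Matrix.SpecialLinearGroup (Fin 3) (ZMod 2)) = ⊥ := by
    rw [← Subgroup.card_eq_one, H12.card_center_SL]; simp
  haveI := H12.PSL_fin_simple (F := ZMod 2) 3 (by norm_num) (by norm_num)
  have e : GL (Fin 3) (ZMod 2) ≃* Matrix.ProjectiveSpecialLinearGroup (Fin 3) (ZMod 2) := by
    refine (MulEquiv.ofBijective Matrix.SpecialLinearGroup.toGL
      ⟨Matrix.SpecialLinearGroup.toGL_injective, fun g => ⟨⟨g.1, ?_⟩, Units.ext rfl⟩⟩).symm.trans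
      ((QuotientGroup.quotientMulEquivOfEq hc).trans QuotientGroup.quotientBot).symm
    have : ∀ a : ZMod 2, a ≠ 0 → a = 1 := by decide
    exact this _ g.det_ne_zero
  exact e.isSimpleGroup

variable {G : Type*} [Group G] [Finite G]

/-- the action of automorphisms on the abelianization -/
def abAut (V : Type*) [Group V] : MulAut V →* MulAut (Abelianization V) where
  toFun e := MulEquiv.abelianizationCongr e
  map_one' := abelianizationCongr_refl
  map_mul' a b := (abelianizationCongr_trans b a).symm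

namespace RA
variable {P V Z : Subgroup G} (h : RA P V Z)
include h

theorem zcomm : IsMulCommutative Z := ⟨⟨fun a b => Subtype.ext (mem_centralizer_iff.1 (h.VC (h.ZV b.2)) a a.2)⟩⟩

theorem aut_gl : Nonempty (MulAut Z ≃* GL (Fin 3) (ZMod 2)) := by
  haveI := h.zcomm
  exact H26.nonempty_mulAut_equiv_GL (fun x => Subtype.ext (by rw [pow_two]; exact h.elem x x.2)) h.cZ

theorem card_aut : Nat.card (MulAut Z) = 168 := by
  haveI := h.zcomm
  rw [H26.card_mulAut_of_elementary (p := 2) (r := 3) (fun x => Subtype.ext (by rw [pow_two]; exact h.elem x x.2)) h.cZ]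
  decide

theorem sylM : SylowOf 2 P N⟦Z⟧ := h.syl.of_le h.PZ le_top

theorem CM : C⟦Z⟧ ⊴ N⟦Z⟧ := ⟨centralizer_le_normalizer _, norm_cent le_rfl⟩

theorem sylC : SylowOf 2 V C⟦Z⟧ := h.hV ▸ h.sylM.inf_normalIn h.CM

theorem noidx (h2 : ∀ H : Subgroup G, H.index ≠ 2) (H : Subgroup N⟦Z⟧) : H.index ≠ 2 := by
  classical
  intro hH
  let φ : N⟦Z⟧ →* ℤˣ := MonoidHom.mk' (fun x => if x ∈ H then 1 else -1) fun a b => by
    simp only [mul_mem_iff_of_index_two hH]
    by_cases x : a ∈ H <;> by_cases y : b ∈ H <;> simp [x, y]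
  have : P.subgroupOf N⟦Z⟧ ≤ H := fun t ht => by
    have := h.no_sign h2 φ ht
    by_contra hn
    simp [φ, hn] at this
  exact h.sylM.not_dvd (hH ▸ index_dvd_of_le this)

theorem NP : N⟦P⟧ ≤ P ⊔ C⟦Z⟧ := fun g hg => by
  obtain ⟨a, b, ha, hb, ⟨k, hk⟩, hb', rfl⟩ := H3.exists_p_part 2 g
  refine mul_mem (mem_sup_left ?_) (mem_sup_right ?_)
  · refine h.syl.pgroup_le_of_norm (Q := zpowers a) (IsPGroup.of_card_dvd_pow (n := k) ?_) le_top
      (Or.inl (zpowers_le.2 (zpowers_le.2 hg ha))) (mem_zpowers a)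
    rw [Nat.card_zpowers]; exact orderOf_dvd_of_pow_eq_one hk
  · exact centralizer_le (h.ZV.trans h.VP) (h.oc b (zpowers_le.2 hg hb) (Nat.coprime_two_right.1 hb'))

theorem psi_surj (h2 : ∀ H : Subgroup G, H.index ≠ 2) : Function.Surjective Z.normalizerMonoidHom := by
  classical
  obtain ⟨e⟩ := h.aut_gl
  haveI := gl32_simple
  haveI := e.isSimpleGroup
  set A := Z.normalizerMonoidHom.range with hA
  have c1 : ♯N⟦Z⟧ = ♯A * ♯C⟦Z⟧ := by
    rw [← index_ker, normalizerMonoidHom_ker, ← Nat.card_congr (subgroupOfEquivOfLe h.CM.1).toEquiv, index_mul_card]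
  have c2 := card_sup_of_norm (A := P) (B := C⟦Z⟧) (Or.inl (h.PZ.trans h.CM.2))
  rw [← h.hV, h.cV, h.cP] at c2
  have hB : P ⊔ C⟦Z⟧ ≤ N⟦Z⟧ := sup_le h.PZ h.CM.1
  have c3 := ((P ⊔ C⟦Z⟧).subgroupOf N⟦Z⟧).index_mul_card
  rw [Nat.card_congr (subgroupOfEquivOfLe hB).toEquiv] at c3
  set B := (P ⊔ C⟦Z⟧).subgroupOf N⟦Z⟧ with hBd
  have c4 : 0 < ♯C⟦Z⟧ := Nat.card_pos
  have c5 : ♯A = 8 * B.index := by
    refine Nat.eq_of_mul_eq_mul_right c4 ?_
    rw [← c1, ← c3, show ♯(P ⊔ C⟦Z⟧) = 8 * ♯C⟦Z⟧ by omega]; ring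
  have c6 := A.index_mul_card
  rw [h.card_aut, c5] at c6
  have c7 : B.index ∈ Nat.divisors 21 := Nat.mem_divisors.2 ⟨Dvd.intro_left A.index (by linarith), by norm_num⟩
  rw [show Nat.divisors 21 = {1, 3, 7, 21} by decide] at c7
  simp only [Finset.mem_insert, Finset.mem_singleton] at c7
  rcases c7 with c7 | c7 | c7 | c7 <;> rw [c7] at c5 c6
  · exfalso
    obtain ⟨M, -, m1, m2⟩ := ex_max2 (R := ⊥) (IsPGroup.of_card (n := 3) c5) (bot_lt_iff_ne_bot.2 fun a => by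
      rw [a, card_bot] at c5; omega)
    refine h.noidx h2 (M.comap Z.normalizerMonoidHom) ?_
    rw [index_comap]
    have := (M.subgroupOf A).index_mul_card
    rw [Nat.card_congr (subgroupOfEquivOfLe m1.le).toEquiv, m2] at this
    exact Nat.eq_of_mul_eq_mul_right Nat.card_pos this
  · exfalso
    haveI := Fintype.ofFinite (N⟦Z⟧ ⧸ B)
    have cq : Fintype.card (N⟦Z⟧ ⧸ B) = 3 := by rw [← Nat.card_eq_fintype_card]; exact c7
    haveI : Nontrivial (N⟦Z⟧ ⧸ B) := Fintype.one_lt_card_iff_nontrivial.1 (by omega)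
    have a1 : P.subgroupOf N⟦Z⟧ ≤ B.normalCore := fun t ht => by
      rw [normalCore_eq_ker, MonoidHom.mem_ker, ← orderOf_eq_one_iff]
      have b1 : MulAction.toPermHom N⟦Z⟧ (N⟦Z⟧ ⧸ B) t ∈ alternatingGroup _ :=
        h.no_sign h2 (Equiv.Perm.sign.comp (MulAction.toPermHom N⟦Z⟧ (N⟦Z⟧ ⧸ B))) ht
      have b2 := orderOf_dvd_natCard _ b1
      rw [nat_card_alternatingGroup, Nat.card_eq_fintype_card, cq] at b2
      have b3 := (orderOf_map_dvd (MulAction.toPermHom N⟦Z⟧ (N⟦Z⟧ ⧸ B)) t).trans (orderOf_dvd_natCard _ ht)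
      rw [Nat.card_congr (subgroupOfEquivOfLe h.PZ).toEquiv, h.cP] at b3
      exact Nat.eq_one_of_dvd_coprimes (by norm_num [Nat.factorial]) b2 b3
    haveI : (C⟦Z⟧.subgroupOf N⟦Z⟧).Normal := normal_subgroupOf_of_le_normalizer h.CM.2
    have a2 : C⟦Z⟧.subgroupOf N⟦Z⟧ ≤ B.normalCore := normal_le_normalCore.2 (comap_mono le_sup_right)
    have a3 : B.Normal := by
      have : B ≤ B.normalCore := (subgroupOf_sup h.PZ h.CM.1).le.trans (sup_le a1 a2)
      rw [← le_antisymm (normalCore_le B) this]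
      infer_instance
    have a4 := (h.syl.of_le (K := P ⊔ C⟦Z⟧) le_sup_left le_top).frattini (NormalIn.of_subgroupOf_normal hB a3)
    have a5 : B = ⊤ := subgroupOf_eq_top.2 (a4.ge.trans (sup_le le_rfl (inf_le_right.trans h.NP)))
    rw [a5, index_top] at c7
    omega
  · exfalso
    rcases IsSimpleGroup.eq_bot_or_eq_top_of_normal A.normalCore inferInstance with a | a
    · rw [normalCore_eq_ker, MonoidHom.ker_eq_bot_iff] at a
      have := Nat.card_le_card_of_injective _ a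
      rw [h.card_aut, Nat.card_perm, ← index_eq_card, show A.index = 3 by omega] at this
      norm_num [Nat.factorial] at this
    · have := normalCore_le A
      rw [a, top_le_iff, ← index_eq_one] at this
      omega
  · exact MonoidHom.range_eq_top.1 (index_eq_one.1 (show A.index = 1 by omega))

theorem frat : ∀ g ∈ N⟦Z⟧, ∃ n ∈ C⟦Z⟧, ∃ y ∈ N⟦V⟧, n * y = g := fun _ hg => h.sylC.frattini_mem (h.CM.2 hg)

theorem psi_surj' (h2 : ∀ H : Subgroup G, H.index ≠ 2) :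
    Function.Surjective (Z.normalizerMonoidHom.comp (inclusion h.NZ)) := fun a => by
  obtain ⟨g, rfl⟩ := h.psi_surj h2 a
  obtain ⟨n, hn, y, hy, e⟩ := h.frat g g.2
  refine ⟨⟨y, hy⟩, ?_⟩
  have : Z.normalizerMonoidHom ⟨n, h.CM.1 hn⟩ = 1 := by
    rw [← MonoidHom.mem_ker, normalizerMonoidHom_ker]; exact hn
  rw [show g = ⟨n, h.CM.1 hn⟩ * inclusion h.NZ ⟨y, hy⟩ from Subtype.ext e.symm, map_mul, this, one_mul]
  rfl

theorem ker_psi' : (Z.normalizerMonoidHom.comp (inclusion h.NZ)).ker = C⟦Z⟧.subgroupOf N⟦V⟧ := by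
  rw [← MonoidHom.comap_ker, normalizerMonoidHom_ker]
  rfl

theorem of_eq {w : V} : Abelianization.of w = 1 ↔ (w : G) ∈ Z := by
  rw [← MonoidHom.mem_ker, Abelianization.ker_of, ← h.der, ← map_subtype_commutator]
  exact (mem_map_iff_mem V.subtype_injective).symm

theorem triv (h2 : ∀ H : Subgroup G, H.index ≠ 2) {x : G} (hx : x ∈ N⟦V⟧) (hxC : x ∈ C⟦Z⟧) {w : G} (hw : w ∈ V) :
    x * w * x⁻¹ * w⁻¹ ∈ Z := by
  classical
  haveI : Finite (Abelianization V) := Quotient.finite _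
  haveI : Finite (MulAut (Abelianization V)) := Finite.of_injective _ MulEquiv.toEquiv_injective
  haveI : Finite (MulAut Z) := Finite.of_injective _ MulEquiv.toEquiv_injective
  let ρ := (abAut V).comp V.normalizerMonoidHom
  have hρ : ∀ (n : N⟦V⟧) (w : V), ρ n (.of w) = .of ⟨n * w * (n : G)⁻¹, (mem_normalizer_iff.1 n.2 w).1 w.2⟩ :=
    fun _ _ => rfl
  have sj : ∀ y : Abelianization V, ∃ w, Abelianization.of w = y := fun y => QuotientGroup.mk_surjective y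
  have fix : ∀ (n : N⟦V⟧) (w : V), ρ n (.of w) = .of w ↔ (n : G) * w * (n : G)⁻¹ * (w : G)⁻¹ ∈ Z := fun n w => by
    rw [hρ, ← mul_inv_eq_one, ← map_inv, ← map_mul, h.of_eq]; rfl
  set X := C⟦Z⟧.subgroupOf N⟦V⟧ with hX
  haveI : X.Normal := by rw [hX, ← h.ker_psi']; infer_instance
  suffices X.map ρ = ⊥ from (fix ⟨x, hx⟩ ⟨w, hw⟩).1 (by
    rw [mem_bot.1 (this.le (mem_map_of_mem ρ (show (⟨x, hx⟩ : N⟦V⟧) ∈ X from hxC)))]; rfl)
  by_contra hne
  have e2 : ∀ y : Abelianization V, y ^ 2 = 1 := fun y => by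
    obtain ⟨w, rfl⟩ := sj y
    rw [← map_pow, h.of_eq, pow_two]; exact h.sq w w.2
  have cA : Nat.card (Abelianization V) = 2 ^ 8 := by
    have := card_eq_card_quotient_mul_card_subgroup (commutator V)
    rw [← card_map_subtype, map_subtype_commutator, h.der, h.cZ, h.cV] at this
    change Nat.card (V ⧸ commutator V) = _
    omega
  have Vk : V.subgroupOf N⟦V⟧ ≤ ρ.ker := fun n hn => MulEquiv.ext fun y => by
    obtain ⟨w, rfl⟩ := sj y
    exact (fix n w).2 (h.cm hn w.2)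
  have sX : SylowOf 2 (V.subgroupOf N⟦V⟧) X := by
    have := (h.sylC.of_le (K := C⟦Z⟧ ⊓ N⟦V⟧) (le_inf h.VC le_normalizer) inf_le_left).subgroupOf inf_le_right
    rwa [inf_subgroupOf_right] at this
  have oX : ¬ 2 ∣ ♯(X.map ρ) := fun a => sX.not_dvd (a.trans (by
    rw [← relIndex_ker]; exact relIndex_dvd_of_le_left _ Vk))
  obtain ⟨p, hp, hQ⟩ := exists_pCoreOf_ne_bot (FT.solvable_of_odd (Nat.odd_iff.2 (Nat.two_dvd_ne_zero.1 oX))) hne
  haveI := Fact.mk hp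
  have pQ := isPGroup_piCoreOf p (X.map ρ)
  have nQ : ρ.range ≤ N⟦piCoreOf {p} (X.map ρ)⟧ := norm_piCoreOf _ (by
    rw [MonoidHom.range_eq_map]
    exact (map_mono (normalizer_eq_top X).ge).trans (le_normalizer_map ρ))
  have oQ : ¬ 2 ∣ ♯(piCoreOf {p} (X.map ρ)) := fun a => oX (a.trans (card_dvd_of_le (piCoreOf_le _ _)))
  generalize piCoreOf {p} (X.map ρ) = Q at hQ pQ nQ oQ
  obtain ⟨c, hc, hc1, hc2, hc3, hc4⟩ := h.soc
  have inv : ∀ B : Subgroup (Abelianization V), (∀ t, ∀ ht : t ∈ P, ∀ y ∈ B, ρ ⟨t, h.PV ht⟩ y ∈ B) →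
      ∀ y ∈ B, y ≠ 1 → .of ⟨c, hc⟩ ∈ B := fun B hB y hy y1 => by
    obtain ⟨w, rfl⟩ := sj y
    obtain ⟨c', a, e⟩ := hc4 ((B.comap Abelianization.of).map V.subtype) ((map_subtype_le _).trans h.VP)
      (fun t ht => mem_norm_of_le_cj (by
        rintro _ ⟨u, hu, rfl⟩
        rw [mem_cj]
        have := hB t⁻¹ (inv_mem ht) _ hu
        rw [hρ] at this
        exact ⟨_, this, by simp⟩)) (fun a => y1 (h.of_eq.2 (a ⟨w, hy, rfl⟩)))
    rwa [← show c' = ⟨c, hc⟩ from Subtype.ext e]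
  have cq : ∀ (n : N⟦V⟧), ∀ q ∈ Q, (ρ n)⁻¹ * q * ρ n ∈ Q := fun n q hq => by
    simpa using (mem_normalizer_iff.1 (inv_mem (nQ ⟨n, rfl⟩)) q).1 hq
  have nofix : ∀ y : Abelianization V, (∀ q ∈ Q, q y = y) → y = 1 := fun y hy => by
    by_contra y1
    haveI := Fintype.ofFinite Q
    let B : Subgroup (Abelianization V) :=
      { carrier := {y | ∀ q ∈ Q, q y = y}
        one_mem' := fun q _ => map_one q
        mul_mem' := fun {a b} ha hb q hq => by rw [map_mul, ha q hq, hb q hq]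
        inv_mem' := fun {a} ha q hq => by rw [map_inv, ha q hq] }
    have a1 := inv B (fun t ht y hy q hq => by
      have := congrArg (ρ ⟨t, h.PV ht⟩) (hy _ (cq ⟨t, h.PV ht⟩ q hq))
      simpa using this) y hy y1
    let τ : Abelianization V →* Abelianization V := MonoidHom.mk' (fun y => ∏ q : Q, q.1 y) fun a b => by
      simp only [map_mul, Finset.prod_mul_distrib]
    obtain ⟨⟨q, hq⟩, q1⟩ := ne_bot_iff_exists_ne_one.1 hQ
    obtain ⟨u, hu⟩ : ∃ u, q u ≠ u := by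
      by_contra! hn
      exact q1 (Subtype.ext (MulEquiv.ext hn))
    have a2 := inv τ.ker (fun t ht y hy => by
      have := congrArg (ρ ⟨t, h.PV ht⟩) (MonoidHom.mem_ker.1 hy)
      rw [map_one] at this
      rw [MonoidHom.mem_ker, ← this]
      simp only [τ, MonoidHom.mk'_apply, map_prod]
      exact Fintype.prod_equiv (Q.normalizerMonoidHom ⟨_, nQ ⟨⟨t, h.PV ht⟩, rfl⟩⟩⁻¹).toEquiv _ _ fun q => by
        change q.1 _ = ρ _ (((ρ _)⁻¹ * q.1 * (ρ _)⁻¹⁻¹) y)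
        simp) (u⁻¹ * q u) (by
      rw [MonoidHom.mem_ker, map_mul, map_inv, inv_mul_eq_one]
      exact (Fintype.prod_equiv (Equiv.mulRight (⟨q, hq⟩ : Q)) _ _ fun _ => rfl).symm) (by rwa [Ne, inv_mul_eq_one, eq_comm])
    rw [MonoidHom.mem_ker] at a2
    simp only [τ, MonoidHom.mk'_apply] at a2
    rw [Finset.prod_congr rfl fun q _ => a1 q.1 q.2, Finset.prod_const, Finset.card_univ,
      ← Nat.card_eq_fintype_card] at a2
    refine hc1 (h.of_eq.1 (orderOf_eq_one_iff.1 (Nat.eq_one_of_dvd_coprimes ?_ (orderOf_dvd_of_pow_eq_one a2)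
      (orderOf_dvd_of_pow_eq_one (e2 _)))))
    exact ((Nat.Prime.coprime_iff_not_dvd Nat.prime_two).2 oQ).symm
  have p255 : p ∣ 255 := by
    have := pQ.card_modEq_card_fixedPoints (Abelianization V)
    rw [cA, show MulAction.fixedPoints Q (Abelianization V) = {1} from Set.eq_singleton_iff_unique_mem.2
      ⟨fun q => map_one q.1, fun y hy => nofix y fun q hq => hy ⟨q, hq⟩⟩, Nat.card_unique] at this
    exact (Nat.modEq_iff_dvd' (by norm_num)).1 this.symm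
  obtain ⟨k, hk⟩ := IsPGroup.iff_card.1 pQ
  have dv := card_subgroup_dvd_card Q
  rw [hk, H26.card_mulAut_of_elementary e2 cA] at dv
  have pp : p = 3 ∨ p = 5 ∨ p = 17 := by
    have : p ∈ Nat.divisors 255 := Nat.mem_divisors.2 ⟨p255, by norm_num⟩
    rw [show Nat.divisors 255 = {1, 3, 5, 15, 17, 51, 85, 255} by decide +kernel] at this
    simp only [Finset.mem_insert, Finset.mem_singleton] at this
    rcases this with rfl | rfl | rfl | rfl | rfl | rfl | rfl | rfl <;> first | omega | exact absurd hp (by norm_num)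
  have k5 : k ≤ 5 := by
    by_contra hn
    have := (pow_dvd_pow p (show 6 ≤ k by omega)).trans dv
    rcases pp with rfl | rfl | rfl <;> revert this <;> decide +kernel
  haveI := Fact.mk (show Nat.Prime 7 by norm_num)
  obtain ⟨S, hS⟩ := exists_sylowOf 7 (⊤ : Subgroup N⟦V⟧)
  have a1 : S.map ρ ≤ C⟦Q⟧ := by
    by_contra hn
    obtain ⟨i, i1, i2, i3⟩ := H3.exists_dvd_pow_sub_one hk (by norm_num) (by omega) (hS.isPGroup.map ρ)
      ((map_le_range _ _).trans nQ) hn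
    have i4 : i ≤ 5 := by omega
    rcases pp with rfl | rfl | rfl <;> interval_cases i <;> omega
  set K := C⟦Q⟧.comap ρ with hK
  haveI : K.Normal := ⟨fun n hn g => by
    rw [hK, mem_comap, map_mul, map_mul, map_inv]
    exact (mem_normalizer_iff.1 (norm_cent nQ ⟨g, rfl⟩) _).1 hn⟩
  set ψ := Z.normalizerMonoidHom.comp (inclusion h.NZ) with hψ
  have sψ := h.psi_surj' h2
  obtain ⟨e⟩ := h.aut_gl
  haveI := gl32_simple
  haveI := e.isSimpleGroup
  have a2 : K.map ψ = ⊤ := (IsSimpleGroup.eq_bot_or_eq_top_of_normal _ (Normal.map inferInstance ψ sψ)).resolve_left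
    fun a => (hS.map ψ).sylow_ne_bot (by rw [map_top_of_surjective ψ sψ, card_top, h.card_aut]; norm_num)
      (le_bot_iff.1 (a ▸ map_mono (map_le_iff_le_comap.1 a1)))
  have a3 : K ⊔ X = ⊤ := by
    rw [hX, ← h.ker_psi', ← comap_map_eq, a2, comap_top]
  have a4 : P.subgroupOf N⟦V⟧ ≤ K := by
    refine IsPi.le_of_normalIn (π := {2}) (H := ⊤) ((h.syl.of_le h.PV le_top).subgroupOf_top.isPi) le_top
      (normalizer_eq_top K).ge ((PiNat.compl_singleton_iff Nat.prime_two).2 fun a => sX.not_dvd (a.trans ?_))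
    rw [← a3, relIndex_sup_left]
    exact relIndex_dvd_of_le_left _ fun n hn => by rw [hK, mem_comap, Vk hn]; exact one_mem _
  refine hc1 (h.of_eq.1 (nofix (.of ⟨c, hc⟩) fun q hq => ?_))
  obtain ⟨y, hy⟩ := sj (q (.of ⟨c, hc⟩))
  have b1 : ∀ t, ∀ ht : t ∈ P, ∀ u : V, ρ ⟨t, h.PV ht⟩ (.of u) = .of u ↔ ⁅(u : G), t⁆ ∈ Z := fun t ht u => by
    rw [fix, ← commutatorElement_inv, inv_mem_iff]; rfl
  have b2 := hc3 y y.2 (fun t ht => (b1 t ht y).1 (by
    have := mem_centralizer_iff.1 (a4 (x := ⟨t, h.PV ht⟩) ht) q hq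
    rw [hy, ← MulAut.mul_apply, ← this, MulAut.mul_apply, (b1 t ht ⟨c, hc⟩).2 (hc2 t ht)]))
    (fun a => hc1 (h.of_eq.1 ((map_eq_one_iff q q.injective).1 (hy ▸ h.of_eq.2 a))))
  have b3 := (h.of_eq (w := y * ⟨c, hc⟩)).2 b2
  rw [map_mul, hy] at b3
  exact (eq_inv_of_mul_eq_one_left b3).trans (inv_self (by rw [← pow_two]; exact e2 _))

theorem npc (h2 : ∀ H : Subgroup G, H.index ≠ 2) : HasNormalPComplement 2 C⟦Z⟧ := by
  have ZC : Z ≤ C⟦Z⟧ := h.ZV.trans h.VC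
  haveI : (Z.subgroupOf C⟦Z⟧).Normal := normal_subgroupOf_of_le_normalizer h.CM.1
  obtain ⟨S, hS⟩ := h.sylC.subgroupOf_top.exists_sylow_top
  refine H3.hasNormalPComplement_of_quotient_of_le_center (Z.subgroupOf C⟦Z⟧)
    (fun z hz => mem_center_iff.2 fun y => Subtype.ext (mem_centralizer_iff.1 y.2 z hz).symm)
    (H3.hasNormalPComplement_of_normalizer_le_centralizer (S.mapSurjective (QuotientGroup.mk'_surjective _)) ?_)
  intro g hg
  obtain ⟨x, rfl⟩ := QuotientGroup.mk'_surjective _ g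
  have hx : (x : G) ∈ N⟦V⟧ := by
    refine inv_mem_iff.1 (mem_norm_of_le_cj fun w hw => mem_cj_inv.2 ?_)
    obtain ⟨y, hy, e⟩ := (mem_set_normalizer_iff.1 hg (QuotientGroup.mk' _ ⟨w, h.VC hw⟩)).1
      ⟨⟨w, h.VC hw⟩, hS.ge hw, rfl⟩
    rw [← map_inv, ← map_mul, ← map_mul, QuotientGroup.mk'_apply, QuotientGroup.mk'_apply, QuotientGroup.eq] at e
    exact (mul_mem_cancel_left (inv_mem (hS.le hy))).1 (h.ZV e)
  refine mem_centralizer_iff.2 ?_
  rintro _ ⟨w, hw, rfl⟩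
  rw [eq_comm, ← commutatorElement_eq_one_iff_mul_comm, ← map_commutatorElement, QuotientGroup.mk'_apply,
    QuotientGroup.eq_one_iff]
  exact h.triv h2 hx x.2 (hS.le hw)

theorem main (h2 : ∀ H : Subgroup G, H.index ≠ 2) :
    (N⟦V⟧.subgroupOf N⟦Z⟧ ⊔ pPrimeCore 2 N⟦Z⟧ = ⊤) ∧
      ∃ (_ : (V.subgroupOf N⟦V⟧ ⊔ pPrimeCore 2 N⟦V⟧).Normal),
        Nonempty (N⟦V⟧ ⧸ (V.subgroupOf N⟦V⟧ ⊔ pPrimeCore 2 N⟦V⟧) ≃* GL (Fin 3) (ZMod 2)) := by
  have hO := hasNormalPComplement_iff.1 (h.npc h2)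
  have hc := (h.sylC.isComplIn hO).2.2.2
  have k : ∀ H : Subgroup G, pPrimeCore 2 H = (piCoreOf {2}ᶜ H).subgroupOf H := fun H => by
    rw [← map_pPrimeCore]; exact (comap_map_eq_self_of_injective H.subtype_injective _).symm
  refine ⟨eq_top_iff.2 fun g _ => ?_, ?_⟩
  · obtain ⟨n, hn, y, hy, e⟩ := h.frat g g.2
    obtain ⟨v, hv, o, ho, rfl⟩ := hc n hn
    have ho' := piCoreOf_le_of_normalIn h.CM ho
    rw [show g = ⟨v, h.NZ (le_normalizer hv)⟩ * ⟨o, piCoreOf_le _ _ ho'⟩ * ⟨y, h.NZ hy⟩ from Subtype.ext e.symm, k]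
    exact mul_mem (mul_mem (mem_sup_left (le_normalizer hv)) (mem_sup_right ho')) (mem_sup_left hy)
  have e1 : V.subgroupOf N⟦V⟧ ⊔ pPrimeCore 2 N⟦V⟧ = (Z.normalizerMonoidHom.comp (inclusion h.NZ)).ker := by
    rw [h.ker_psi', k]
    refine le_antisymm (sup_le (comap_mono h.VC) (comap_mono ?_)) fun x hx => ?_
    · refine (cent_of_coprime (piCoreOf_le _ _) (le_normalizer.trans (piCoreOf_normalIn _ _).2)
        ((isPi_piCoreOf _ _).coprime' h.sylC.isPi)).trans (centralizer_le h.ZV)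
    · obtain ⟨v, hv, o, ho, e⟩ := hc x hx
      have ho1 : o ∈ N⟦V⟧ := (mul_mem_cancel_left (le_normalizer hv)).1 (e ▸ x.2)
      have ho2 : o ∈ piCoreOf {2}ᶜ N⟦V⟧ := le_piCoreOf (A := piCoreOf {2}ᶜ C⟦Z⟧ ⊓ N⟦V⟧)
        ⟨inf_le_right, norm_inf (h.NZ.trans (piCoreOf_normalIn_of _ h.CM).2) le_normalizer⟩
        ((isPi_piCoreOf _ _).of_le inf_le_left) ⟨ho, ho1⟩
      rw [show x = ⟨v, le_normalizer hv⟩ * ⟨o, ho1⟩ from Subtype.ext e]
      exact mul_mem (mem_sup_left hv) (mem_sup_right ho2)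
  haveI : (V.subgroupOf N⟦V⟧ ⊔ pPrimeCore 2 N⟦V⟧).Normal := e1 ▸ inferInstance
  obtain ⟨e⟩ := h.aut_gl
  exact ⟨inferInstance, ⟨((QuotientGroup.quotientMulEquivOfEq e1).trans
    (QuotientGroup.quotientKerEquivOfSurjective _ (h.psi_surj' h2))).trans e⟩⟩

end RA

end Cfsg.Agent.H15T
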