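import Cfsg.Agent.BG.S01b
import Cfsg.Agent.H10.Xsp5
import Cfsg.Agent.H24.Misc1
import Cfsg.Agent.H11.Fus

/-! A large extraspecial subgroup of width at least 2 lies in every subgroup of index 2 of `C(z)`. -/

set_option autoImplicit false
set_option linter.style.haveILetI false

namespace Cfsg.Agent.H15T

open Subgroup Cfsg.Agent.H20 Cfsg.Agent.H21 Cfsg.Agent.BG Cfsg.Agent.H10
open scoped commutatorElement

variable {G : Type*} [Group G] [Finite G]

theorem xs_big {Q : Subgroup G} {z t : G} (h : XS Q z) (hc : 8 < ♯Q) (ht : t ∈ Q) (htz : t ∉ zpowers z) :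
    ∃ a ∈ Q, ∃ b ∈ Q, a * t = t * a ∧ b * t = t * b ∧ a * b ≠ b * a := by
  classical
  by_contra hn
  push Not at hn
  obtain ⟨q, hq, hqt⟩ := h.exists_ne_comm ht htz
  have h1 : ∀ x ∈ Q, x * t = t * x → x ∈ ({1, z, t⁻¹, z * t⁻¹} : Finset G) := by
    intro x hx hxt
    simp only [Finset.mem_insert, Finset.mem_singleton]
    rcases h.mem_of_cent_cent' ht htz hx (fun r hr hrt => hn r hr x hx hrt hxt) with e | e
    · rcases h.mem_z.1 e with e | e
      · exact Or.inl e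
      · exact Or.inr (Or.inl e)
    · rcases h.mem_z.1 e with e | e
      · exact Or.inr (Or.inr (Or.inl (eq_inv_of_mul_eq_one_left e)))
      · exact Or.inr (Or.inr (Or.inr (eq_mul_inv_of_mul_eq e)))
  set F : Finset G := {1, z, t⁻¹, z * t⁻¹} with hF
  have hF4 : F.card ≤ 4 := Finset.card_le_four
  have h2 : (Q : Set G) ⊆ ↑(F ∪ F.image (fun x => q⁻¹ * x)) := by
    intro x hx
    simp only [Finset.coe_union, Finset.coe_image, Set.mem_union, Finset.mem_coe, Set.mem_image]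
    by_cases hxt : x * t = t * x
    · exact Or.inl (h1 x hx hxt)
    · right
      refine ⟨q * x, h1 _ (Q.mul_mem hq hx) ?_, by group⟩
      exact ((h.comm_mul_iff ht hq hx).2 ⟨fun e => absurd e.symm hqt, fun e => absurd e.symm hxt⟩).symm
  have h3 := Set.ncard_le_ncard h2 (Finset.finite_toSet _)
  rw [Set.ncard_coe_finset] at h3
  have h4 := Finset.card_union_le F (F.image (fun x => q⁻¹ * x))
  have h5 := Finset.card_image_le (s := F) (f := fun x => q⁻¹ * x)
  have h6 : ♯Q = (Q : Set G).ncard := (Nat.card_coe_set_eq _)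
  omega

theorem lx_of {z : G} (hz : orderOf z = 2) {E : Subgroup G} (hE : E = (pCore 2 ↥C₁⟦z⟧).map (C₁⟦z⟧).subtype)
    (hext : IsExtraspecial 2 E) (hcent : C⟦E⟧ ≤ E) : LX E z := by
  rw [map_pCore] at hE
  have hn : E ⊴ C₁⟦z⟧ := hE ▸ piCoreOf_normalIn _ _
  have hc : ∀ q ∈ E, q * z = z * q := fun q hq => mem_centralizer_singleton_iff.1 (hn.1 hq)
  have hzE : z ∈ E := hcent (mem_centralizer_iff.2 hc)
  have hx := xs_of_isExtraspecial hext (fun e => by rw [e, orderOf_one] at hz; omega) hzE hc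
  exact ⟨hx, fun c hc' => hx.zc c (hcent (mem_centralizer_iff.2 hc')) hc', hn.2⟩

/-- Thompson transfer with an extremal conjugate -/
theorem tt_ext (hno : ∀ H : Subgroup G, H.index ≠ 2) {S M R : Subgroup G} (hS : SylowOf 2 S ⊤) (hM : M ≤ S)
    (h2 : M.relIndex S = 2) {u : G} (hu : u * u = 1) (hR : IsPGroup 2 R) (hRu : R ≤ C₁⟦u⟧) :
    ∃ g : G, g * u * g⁻¹ ∈ M ∧ cj g R ≤ S :=
  H24.thompson_transfer_extremal ⟨le_top, hS.isPGroup, fun _ hQ h1 h2 => hS.pgroup_eq_of_le hQ h1 h2⟩ hM h2 hu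
    (fun M hM => absurd hM (hno M)) hR hRu

theorem xs_le (hres : pResidual 2 G = ⊤) {z : G} {E K : Subgroup G} (h : LX E z) (hc : 8 < ♯E)
    (hKi : K.relIndex C₁⟦z⟧ = 2) : E ≤ K := by
  set H := C₁⟦z⟧ with hH
  have hEH : E ≤ H := h.le_centralizer
  have hK2 : ∀ x ∈ H, ∀ y ∈ H, x * y ∈ K ↔ (x ∈ K ↔ y ∈ K) := fun x hx y hy =>
    mul_mem_iff_of_index_two (H := K.subgroupOf H) hKi (a := ⟨x, hx⟩) (b := ⟨y, hy⟩)
  have hcm : ∀ x ∈ H, ∀ y ∈ H, x * y * x⁻¹ * y⁻¹ ∈ K := by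
    intro x hx y hy
    rw [hK2 _ (mul_mem (mul_mem hx hy) (inv_mem hx)) _ (inv_mem hy), hK2 _ (mul_mem hx hy) _ (inv_mem hx),
      hK2 _ hx _ hy, inv_mem_iff, inv_mem_iff]
    tauto
  have hzK : z ∈ K := by
    obtain ⟨a, ha, b, hb, e⟩ := h.exists_comm
    rw [← e]; exact hcm a (hEH ha) b (hEH hb)
  have hZK : zpowers z ≤ K := zpowers_le.2 hzK
  by_contra hn
  obtain ⟨t, ht, htK, t2⟩ : ∃ t ∈ E, t ∉ K ∧ t * t = 1 := by
    by_contra hno
    push Not at hno
    obtain ⟨x, hx, hxK⟩ := SetLike.not_le_iff_exists.1 hn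
    have hsq : ∀ y ∈ E, y ∉ K → y * y = z := fun y hy hyK =>
      (h.mem_z.1 (h.sq y hy)).resolve_left (hno y hy hyK)
    have hinv : ∀ e ∈ E, e ∈ K → x⁻¹ * e * x = e⁻¹ := by
      intro e he heK
      have h1 := hsq (x * e) (E.mul_mem hx he) (fun h' => hxK (((hK2 x (hEH hx) e (hEH he)).1 h').2 heK))
      rw [← hsq x hx hxK] at h1
      calc x⁻¹ * e * x = x⁻¹ * x⁻¹ * (x * e * (x * e)) * e⁻¹ := by group
        _ = e⁻¹ := by rw [h1]; group
    have hab : ∀ a ∈ E, a ∈ K → ∀ b ∈ E, b ∈ K → a * b = b * a := by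
      intro a ha haK b hb hbK
      have h1 := hinv _ (E.mul_mem ha hb) (K.mul_mem haK hbK)
      have h2 : x⁻¹ * (a * b) * x = (x⁻¹ * a * x) * (x⁻¹ * b * x) := by group
      rw [h2, hinv a ha haK, hinv b hb hbK, ← mul_inv_rev, inv_inj] at h1
      exact h1.symm
    obtain ⟨a, ha, haK, haz⟩ : ∃ a ∈ E, a ∈ K ∧ a ∉ zpowers z := by
      obtain ⟨a, ha, b, hb, hax, hbx, hab'⟩ := xs_big h.toXS hc hx (fun e => hxK (hZK e))
      by_cases haK : a ∈ K
      · exact ⟨a, ha, haK, fun e => hab' (h.comm_of_mem_z e (h.cent b hb)).symm⟩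
      · refine ⟨a * x, E.mul_mem ha hx, (hK2 a (hEH ha) x (hEH hx)).2 ⟨fun e => absurd e haK, fun e => absurd e hxK⟩,
          fun e => hab' ?_⟩
        have := h.comm_of_mem_z e (h.cent b hb)
        rw [mul_assoc, ← hbx, ← mul_assoc, ← mul_assoc] at this
        exact (mul_right_cancel this).symm
    have hcK : ∀ y ∈ E, y * a = a * y → y ∈ K := by
      intro y hy hya
      by_contra hyK
      refine haz (h.zc a ha fun q hq => ?_)
      by_cases hqK : q ∈ K
      · exact hab q hq hqK a ha haK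
      · have h1 : q * y ∈ K := (hK2 q (hEH hq) y (hEH hy)).2 ⟨fun e => absurd e hqK, fun e => absurd e hyK⟩
        have h2 := hab _ (E.mul_mem hq hy) h1 a ha haK
        rw [mul_assoc, hya, ← mul_assoc, ← mul_assoc] at h2
        exact mul_right_cancel h2
    obtain ⟨c, hc', d, hd, hca, hda, hcd⟩ := xs_big h.toXS hc ha haz
    exact hcd (hab c hc' (hcK c hc' hca) d hd (hcK d hd hda))
  obtain ⟨T, hT, hET⟩ := exists_sylowOf_ge (p := 2) h.isPGroup hEH
  have hT' : SylowOf 2 T ⊤ := hT.of_norm_le le_top (inf_le_right.trans (h.normalizer_le_of_le hT.isPGroup hET))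
  have hidx : (T ⊓ K).relIndex T = 2 := by
    rw [inf_relIndex_left, relIndex_eq_two_iff]
    refine ⟨t, hET ht, fun b hb => ?_⟩
    rw [hK2 b (hT.1 hb) t (hEH ht)]
    by_cases hbK : b ∈ K
    · right; exact ⟨hbK, fun e => htK (e.1 hbK)⟩
    · left; exact ⟨⟨fun e => absurd e hbK, fun e => absurd e htK⟩, hbK⟩
  obtain ⟨g, hg, hle⟩ := tt_ext (H11.no_index_two_iff.2 hres) hT' inf_le_left hidx t2
    (h.isPGroup.to_le (inf_le_left : E ⊓ C₁⟦t⟧ ≤ E)) inf_le_right
  have htz : t ∉ zpowers z := fun e => htK (hZK e)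
  set t' := g⁻¹ * z * g⁻¹⁻¹ with ht'
  have h1 : ∀ r ∈ E, r * t = t * r → r * t' = t' * r := by
    intro r hr hrt
    have := mem_centralizer_singleton_iff.1
      (hT.1 (hle (conj_mem_cj_of_mem (⟨hr, mem_centralizer_singleton_iff.2 hrt⟩ : r ∈ E ⊓ C₁⟦t⟧) g)))
    calc r * t' = g⁻¹ * (g * r * g⁻¹ * z) * g := by rw [ht']; group
      _ = t' * r := by rw [this, ht']; group
  have hne1 : t' ≠ 1 := fun e => h.ne_one (by
    calc z = g * t' * g⁻¹ := by rw [ht']; group
      _ = 1 := by rw [e]; group)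
  have hnez : t' ≠ z := by
    intro e
    have hgH : g ∈ H := mem_centralizer_singleton_iff.2 (by
      calc g * z = g * t' := by rw [e]
        _ = z * g := by rw [ht']; group)
    apply htK
    have h2 := hcm g hgH t (hEH ht)
    have h3 := K.mul_mem (K.inv_mem h2) hg.2
    simpa [mul_assoc] using h3
  have h2 : t' * t ∈ zpowers z := (h.mem_of_cent ht t2 htz h1).resolve_left fun e =>
    (h.mem_z.1 e).elim hne1 hnez
  have ht'E : t' ∈ E := by
    have := E.mul_mem (h.zpowers_le h2) (E.inv_mem ht)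
    simpa using this
  have ht'K : t' ∉ K := fun e => htK (by simpa using K.mul_mem (K.inv_mem e) (hZK h2))
  have hz' := h.mem_conj' ht'E hnez
  have h' := h.conj g⁻¹
  obtain ⟨a, ha, b, hb, haz, hbz, hab⟩ := xs_big h'.toXS (by rw [← cj_def, card_cj]; exact hc) hz' (fun e =>
    (h'.mem_z.1 e).elim h.ne_one hnez.symm)
  apply ht'K
  have e := h'.mul_eq_of_ne ha hb hab
  have e' : t' = a * b * a⁻¹ * b⁻¹ := by rw [e, ht']; group
  rw [e']
  exact hcm a (mem_centralizer_singleton_iff.2 haz) b (mem_centralizer_singleton_iff.2 hbz)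

end Cfsg.Agent.H15T
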